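import Cfsg.Agent.H0.SimSpec
import Cfsg.Agent.H59.Std
import Cfsg.Agent.H59.UField
import Cfsg.Agent.H57.PslTwist2

/-! # S3694, tower SIM, slot StU: an involution of the second kind is the standard adjoint -/

set_option autoImplicit false

namespace H49.SimStU

open Matrix H0.Sim

variable {K : Type} [Field K] {k : ℕ}

theorem sn (φ : Mt k K ≃ₐ[K] Mt k K) :
    ∃ g g' : Mt k K, g * g' = 1 ∧ ∀ m, φ m = g * m * g' := by
  obtain ⟨T, hT⟩ := ((toLinAlgEquiv'.symm.trans φ).trans toLinAlgEquiv').eq_linearEquivConjAlgEquiv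
  refine ⟨toLinAlgEquiv'.symm T.toLinearMap, toLinAlgEquiv'.symm T.symm.toLinearMap, ?_, fun m => ?_⟩
  · rw [← map_mul, ← map_one toLinAlgEquiv'.symm]
    congr 1; ext; simp
  · apply toLinAlgEquiv'.injective
    have := congrArg (fun f => f (toLinAlgEquiv' m)) hT
    simp only [AlgEquiv.trans_apply, AlgEquiv.symm_apply_apply, LinearEquiv.conjAlgEquiv_apply] at this
    rw [this, map_mul, map_mul, AlgEquiv.apply_symm_apply, AlgEquiv.apply_symm_apply]
    rfl

/-- The adjoint. -/
def ad (σ : K →+* K) (m : Mt k K) : Mt k K := (m.map σ)ᵀ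

theorem ad_mul (σ : K →+* K) (a b : Mt k K) : ad σ (a * b) = ad σ b * ad σ a := by
  simp [ad, Matrix.map_mul, transpose_mul]

theorem ad_add (σ : K →+* K) (a b : Mt k K) : ad σ (a + b) = ad σ a + ad σ b := by
  ext i j; simp [ad]

theorem ad_smul (σ : K →+* K) (c : K) (a : Mt k K) : ad σ (c • a) = σ c • ad σ a := by
  ext i j; simp [ad]

theorem ad_one (σ : K →+* K) : ad σ (1 : Mt k K) = 1 := by
  simp [ad, Matrix.map_one]

theorem ad_ad {σ : K →+* K} (h : ∀ a, σ (σ a) = a) (a : Mt k K) : ad σ (ad σ a) = a := by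
  ext i j; simp [ad, h]

theorem central {m : Mt k K} (h : ∀ a, m * a = a * m) : ∃ c : K, m = c • (1 : Mt k K) := by
  obtain ⟨c, hc⟩ := mem_range_scalar_of_commute_single (M := m) fun i j _ => (h _).symm
  exact ⟨c, by rw [← hc, scalar_apply, smul_one_eq_diagonal]⟩

theorem smul_inj (hk : 1 ≤ k) {c d : K} (h : c • (1 : Mt k K) = d • 1) : c = d := by
  simpa using congrFun (congrFun h ⟨0, hk⟩) ⟨0, hk⟩

open H59 in
theorem orth [Finite K] {σ : K →+* K} (hσ : σ ≠ RingHom.id K) (hσ2 : ∀ a, σ (σ a) = a)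
    {H H' : Mt k K} (h1 : ad σ H = H) (h2 : H * H' = 1) : ∃ C : Mt k K, ad σ C * H * C = 1 := by
  have h1' : ∀ i j, σ (H i j) = H j i := fun i j => congrFun (congrFun h1 j) i
  have hB : ∀ x y : Fin k → K, ((stdForm σ (Fin k)).compl₂ (toLin' H)) x y =
      ∑ i, ∑ j, σ (x i) * (H i j * y j) := fun x y => by
    simp [stdForm_apply, mulVec, dotProduct, Finset.mul_sum]
  have h : IsHerm ((stdForm σ (Fin k)).compl₂ (toLin' H)) :=
    ⟨hσ, hσ2, fun x y => by
      rw [hB, hB, Finset.sum_comm, map_sum]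
      refine Finset.sum_congr rfl fun i _ => ?_
      rw [map_sum]
      refine Finset.sum_congr rfl fun j _ => ?_
      rw [map_mul, map_mul, hσ2, h1']
      ring,
      fun x hx => funext fun i => by
        have := hx (H' *ᵥ Pi.single i 1)
        rw [LinearMap.compl₂_apply, toLin'_apply, mulVec_mulVec, h2, one_mulVec,
          stdForm_single_right] at this
        simpa using this⟩
  obtain ⟨e, -, he⟩ := h.exists_orthonormal_mem k (W := ⊤) (by simp [h.perp_top]) (by simp)
  refine ⟨(of e)ᵀ, ?_⟩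
  ext i j
  rw [one_apply, ← he, hB, Matrix.mul_assoc]
  simp [ad, mul_apply, Finset.mul_sum]

theorem main [Finite K] (hk : 1 ≤ k) (s : Mt k K → Mt k K) (ha : ∀ a b, s (a + b) = s a + s b)
    (hm : ∀ a b, s (a * b) = s b * s a) (hi : ∀ a, s (s a) = a)
    (hz : ∃ z, (∀ a, z * a = a * z) ∧ s z ≠ z) :
    ∃ σ : K →+* K, σ ≠ RingHom.id K ∧ (∀ a, σ (σ a) = a) ∧
      ∃ C D : Mt k K, D * C = 1 ∧ ∀ m, D * s m * C = ad σ (D * m * C) := by
  have s1 : s 1 = 1 := by
    calc s 1 = s 1 * s (s 1) := by rw [hi, mul_one]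
      _ = 1 := by rw [← hm, mul_one, hi]
  have hc : ∀ c : K, ∃ d : K, s (c • 1) = d • (1 : Mt k K) := fun c => central fun a => by
    rw [← hi a, ← hm, ← hm]
    simp
  choose f hf using hc
  let σ : K →+* K :=
    { toFun := f
      map_one' := smul_inj hk (by rw [← hf, one_smul, s1])
      map_mul' := fun c d => smul_inj hk (by
        rw [← hf, show (c * d) • (1 : Mt k K) = d • 1 * c • 1 by simp [smul_smul, mul_comm], hm, hf, hf]
        simp [smul_smul, mul_comm])
      map_zero' := smul_inj hk (by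
        have := ha 0 0
        rw [add_zero] at this
        rw [← hf, zero_smul]
        exact left_eq_add.1 this)
      map_add' := fun c d => smul_inj hk (by rw [← hf, add_smul, ha, hf, hf, add_smul]) }
  have hσ : ∀ c, s (c • 1) = σ c • (1 : Mt k K) := hf
  have h2 : ∀ c, σ (σ c) = c := fun c => smul_inj hk (by rw [← hσ, ← hσ, hi])
  have h1 : σ ≠ RingHom.id K := fun e => by
    obtain ⟨z, z1, z2⟩ := hz
    obtain ⟨c, rfl⟩ := central z1
    exact z2 (by rw [hσ, e]; rfl)
  let ψ : Mt k K ≃ₐ[K] Mt k K :=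
    { toFun := fun m => s (ad σ m)
      invFun := fun m => ad σ (s m)
      left_inv := fun m => by simp only [hi, ad_ad h2]
      right_inv := fun m => by simp only [hi, ad_ad h2]
      map_mul' := fun a b => by simp only [ad_mul, hm]
      map_add' := fun a b => by simp only [ad_add, ha]
      commutes' := fun c => by
        simp only [Algebra.algebraMap_eq_smul_one, ad_smul, ad_one, hσ, h2] }
  obtain ⟨g, g', hg, hψ⟩ := sn ψ
  have hg' : g' * g = 1 := mul_eq_one_comm.1 hg
  have hs : ∀ m, s m = g * ad σ m * g' := fun m => by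
    rw [← hψ]
    exact (congrArg s (ad_ad h2 m)).symm
  have hA : ∀ m, g * ad σ g' * m * (ad σ g * g') = m := fun m => by
    conv_rhs => rw [← hi m, hs, hs, ad_mul, ad_mul, ad_ad h2]
    simp only [Matrix.mul_assoc]
  have hBA : ad σ g * g' * (g * ad σ g') = 1 := mul_eq_one_comm.1 (by simpa using hA 1)
  obtain ⟨c, hc⟩ := central (m := g * ad σ g') fun m => by
    conv_rhs => rw [← hA m, Matrix.mul_assoc _ (ad σ g * g'), hBA, mul_one]
  have e1 : g = c • ad σ g := by
    rw [← smul_one_mul, ← hc, Matrix.mul_assoc, ← ad_mul, hg, ad_one, mul_one]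
  have e2 : ad σ g = σ c • g := by
    conv_lhs => rw [e1, ad_smul, ad_ad h2]
  have e3 : σ c * σ (σ c) = 1 := smul_inj hk (by
    rw [h2, one_smul, ← hg]
    conv_rhs => rw [e1, e2]
    simp [smul_smul, mul_comm])
  obtain ⟨x, x0, hx⟩ := H59.exists_div_eq_of_norm_one h1 h2 e3
  have t1 : ad σ (x • g) = x • g := by
    rw [ad_smul, e2, smul_smul, mul_comm, ← hx]
  have t2 : (x⁻¹ • g') * (x • g) = 1 := by
    simp [smul_smul, hg', x0]
  have t3 : (x • g) * (x⁻¹ • g') = 1 := mul_eq_one_comm.1 t2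
  have t4 : ad σ (x⁻¹ • g') = x⁻¹ • g' := by
    calc ad σ (x⁻¹ • g') = ad σ (x⁻¹ • g') * (ad σ (x • g) * (x⁻¹ • g')) := by rw [t1, t3, mul_one]
      _ = _ := by rw [← Matrix.mul_assoc, ← ad_mul, t3, ad_one, one_mul]
  have t5 : ∀ m, s m = (x • g) * ad σ m * (x⁻¹ • g') := fun m => by
    rw [hs]
    simp [smul_smul, x0]
  generalize x • g = T at t1 t2 t3 t4 t5
  generalize x⁻¹ • g' = T' at t2 t3 t4 t5
  obtain ⟨C, hC⟩ := orth h1 h2 t4 t2
  refine ⟨σ, h1, h2, C, ad σ C * T', hC, fun m => ?_⟩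
  rw [t5, ad_mul, ad_mul, ad_mul, t4, ad_ad h2]
  calc _ = ad σ C * (T' * T) * ad σ m * T' * C := by simp only [Matrix.mul_assoc]
    _ = _ := by rw [t2]; simp only [Matrix.mul_assoc, mul_one]

/-- Conjugation. -/
def cjEquiv {C D : Mt k K} (h : D * C = 1) : Mt k K ≃+* Mt k K where
  toFun m := D * m * C
  invFun m := C * m * D
  left_inv m := by
    calc C * (D * m * C) * D = C * D * m * (C * D) := by simp only [Matrix.mul_assoc]
      _ = m := by rw [mul_eq_one_comm.1 h, one_mul, mul_one]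
  right_inv m := by
    calc D * (C * m * D) * C = D * C * m * (D * C) := by simp only [Matrix.mul_assoc]
      _ = m := by rw [h, one_mul, mul_one]
  map_mul' a b := by
    calc D * (a * b) * C = D * a * (C * D) * b * C := by
          rw [mul_eq_one_comm.1 h]; simp only [Matrix.mul_assoc, one_mul]
      _ = _ := by simp only [Matrix.mul_assoc]
  map_add' a b := by rw [mul_add, add_mul]

theorem jobStU : JobStU := by
  intro C _ _ _ st ha hm hi ⟨z, z1, z2⟩
  obtain ⟨k, hk, K, _, ⟨e⟩⟩ := IsSimpleRing.exists_ringEquiv_matrix_divisionRing C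
  have hk1 : 1 ≤ k := Nat.pos_of_ne_zero hk.ne
  have : Finite (Matrix (Fin k) (Fin k) K) := Finite.of_equiv C e.toEquiv
  have : Finite K := Finite.of_injective (fun c : K => (of fun _ _ => c : Matrix (Fin k) (Fin k) K))
    fun c d h => congrFun (congrFun h ⟨0, hk1⟩) ⟨0, hk1⟩
  letI : Field K := littleWedderburn K
  letI : Fintype K := Fintype.ofFinite K
  obtain ⟨σ, h1, h2, P, D, hD, hs⟩ := main (K := K) hk1 (fun m => e (st (e.symm m)))
    (fun a b => by rw [map_add, ha, map_add]) (fun a b => by rw [map_mul, hm, map_mul])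
    (fun a => by rw [e.symm_apply_apply, hi, e.apply_symm_apply])
    ⟨e z, fun a => by rw [← e.apply_symm_apply a, ← map_mul, z1, map_mul], fun h => by
      rw [e.symm_apply_apply] at h
      exact z2 (e.injective h)⟩
  obtain ⟨p, _, f, hp, hf⟩ := FiniteField.card' K
  have : Fact p.Prime := ⟨hp⟩
  obtain ⟨-, b1, b2⟩ := H57.involution_eq_pow hf
    (σ := RingEquiv.ofBijective σ (H59.conj_bijective h2))
    (fun h => h1 (RingHom.ext fun a => DFunLike.congr_fun h a)) (RingEquiv.ext fun a => h2 a)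
  refine ⟨K, inferInstance, inferInstance, k, _, e.trans (cjEquiv hD), hk1, b1, fun a => ?_⟩
  have := hs (e a)
  rw [e.symm_apply_apply] at this
  refine this.trans ?_
  ext i j
  exact b2 _

end H49.SimStU
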