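import Cfsg.Agent.H42.SimXBSpec
import Cfsg.Agent.H49.SimStU

/-! # S3694, tower SIM, slot XB-SU: the unitary Singer case -/

set_option autoImplicit false

namespace H49.SimXbSU

open Matrix H0.Sim H42.SX H49.SimStU

theorem mem_GU_of_ad {n q : ℕ} {F : Type} [Field F] [Fintype F] (hF : Fintype.card F = q ^ 2)
    {g : GL (Fin n) F} (h : ad (H59.frob hF) (g : Mt n F) * g = 1) : g ∈ Cfsg.GU n F q := by
  rw [H57.mem_GU_iff (RingEquiv.ofBijective (H59.frob hF) (H59.conj_bijective (H59.frob_frob hF)))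
    fun _ => rfl]
  have := congrArg transpose h
  rw [transpose_mul, transpose_one] at this
  exact this

theorem jobSU : JobSU := by
  intro sd sr nu n F K _ _ _ _ _ ι q p H Q A b kt hA hn hc
  exfalso
  have hF : Fintype.card F = q ^ 2 := by simpa using kt.par.card
  have hq : 2 ≤ q := H59.two_le_q hF
  have h2 := kt.par.two
  have : Nonempty (Fin n) := ⟨⟨0, by omega⟩⟩
  have inj : Function.Injective ι := (ι : K →+* Mt n F).injective
  have hex : ∀ k : K, ∃ k' : K, ι k' = ad (H59.frob hF) (ι k) := fun k => by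
    have h1 : ι k ∈ (A : Set (Mt n F)) := hA ▸ Set.mem_range_self k
    have h3 : ad (H59.frob hF) (ι k) ∈ (A : Set (Mt n F)) := kt.adj rfl _ h1
    rwa [← hA] at h3
  choose f hf using hex
  let s : K →+* K :=
    { toFun := f
      map_one' := inj (by rw [hf, map_one, ad_one])
      map_mul' := fun a c => inj (by rw [hf, map_mul, ad_mul, ← hf, ← hf, ← map_mul, mul_comm])
      map_zero' := inj (by
        rw [hf, map_zero]
        ext i j
        simp [ad])
      map_add' := fun a c => inj (by rw [hf, map_add, ad_add, ← hf, ← hf, ← map_add]) }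
  have hs : ∀ k, ι (s k) = ad (H59.frob hF) (ι k) := hf
  obtain ⟨ho, hp⟩ := sr F K q s hF (fun k => inj (by rw [hs, hs, ad_ad (H59.frob_frob hF)]))
    fun x => inj (by
      rw [hs, AlgHom.commutes, AlgHom.commutes, Algebra.algebraMap_eq_smul_one,
        Algebra.algebraMap_eq_smul_one, ad_smul, ad_one]
      rfl)
  rw [hn] at ho hp
  have hK : Fintype.card K = (q ^ 2) ^ n := by
    rw [Module.card_eq_pow_finrank (K := F), hF, hn]
  have hq1 : 1 ≤ q ^ n := Nat.one_le_pow _ _ (by omega)
  obtain ⟨d, hd, hdv⟩ := sd n F K ι true q p ((q ^ n - 1) * (q ^ 2 - 1)) H Q A b kt hA hn hc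
    fun k hk => by
      let w : GL (Fin n) F := Units.map (ι : K →* Mt n F) (Units.mk0 k hk)
      have hw : ∀ e : ℕ, ((w ^ e : GL (Fin n) F) : Mt n F) = ι (k ^ e) := fun e => by
        rw [Units.val_pow_eq_pow_val, map_pow]
        rfl
      have hu : w ^ (q ^ n - 1) ∈ Cfsg.GU n F q := by
        apply mem_GU_of_ad hF
        rw [hw, ← hs, ← map_mul, hp, ← pow_mul, ← pow_add]
        have e : (q ^ n - 1) * q ^ n + (q ^ n - 1) = Fintype.card K - 1 := by
          rw [hK, ← pow_mul, mul_comm 2 n, pow_mul]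
          obtain ⟨m, hm⟩ := Nat.exists_eq_add_of_le hq1
          rw [hm]
          symm
          apply Nat.sub_eq_of_eq_add
          rw [Nat.add_sub_cancel_left]
          ring
        rw [e, FiniteField.pow_card_sub_one_eq_one k hk, map_one]
      refine ⟨w ^ ((q ^ n - 1) * (q ^ 2 - 1)), ⟨?_, ?_⟩, hw _⟩
      · rw [pow_mul]
        simpa [Gam] using pow_mem hu _
      · classical
        refine MonoidHom.mem_ker.2 ?_
        rw [pow_mul, map_pow, ← hF, ← Fintype.card_units, pow_card_eq_one]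
  rw [hF, hd] at hdv
  obtain ⟨h3, h4, h5⟩ := nu q d p kt.pp hq (hd ▸ ho) hdv
  exact kt.par.n3 rfl ⟨by rw [hd, h3, h4], h5⟩

end H49.SimXbSU
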