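import Cfsg.Agent.H40.CSSpec

set_option autoImplicit false

namespace H49.CsAl
universe u
open H40.CS

theorem absorb {G : Type u} [Group G] (B : Bas G) {p s r : ℕ} (hs : s.Prime) (hr : r.Prime) {b : G}
    (hb : IsPrim s b) (hpb : p ∣ cs b) (hsd : ∀ d : G, IsPrim s d → XS p d) (hrb : ¬ r ∣ cs b) :
    ∀ d : G, IsPrim r d → XS p d := by
  intro d hd
  by_cases hrs : r = s
  · subst hrs
    exact hsd d hd
  · have ho : ¬ r ∣ orderOf b := by
      obtain ⟨k, hk⟩ := hb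
      rw [hk]
      intro h
      exact hrs ((Nat.prime_dvd_prime_iff_eq hr hs).1 (hr.dvd_of_dvd_pow h))
    obtain ⟨x, hx1, hx2⟩ := B.f5 r hr b d hrb ho hd
    exact ⟨x, hpb.trans hx1, hx2⟩

theorem not_dvd_of_coprime {r m n : ℕ} (hr : r.Prime) (h : m.Coprime n) (hn : r ∣ n) : ¬ r ∣ m := by
  intro hm
  exact hr.one_lt.ne' (Nat.eq_one_of_dvd_coprimes h hm hn)

theorem job : JobAl.{u} := by
  intro hB hS G _ _ p q H hpa b s hs hb hpb a ha hqa hsd
  have B := hB G
  have cab : (cs b).Coprime (cs a) := H.cop b a hpb hqa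
  have F1 : ∀ r : ℕ, r.Prime → ¬ r ∣ cs a → ∀ d : G, IsPrim r d → XS q d :=
    fun r hr hra => absorb B H.hp hr ha hqa hpa hra
  have F2 : ∀ r : ℕ, r.Prime → ¬ r ∣ cs b → ∀ d : G, IsPrim r d → XS p d :=
    fun r hr hrb => absorb B hs hr hb hpb hsd hrb
  apply H.ns
  apply hS G
  rintro t h ht ⟨r, hr, -, hh⟩
  have hXh : XS q h ∨ XS p h := by
    by_cases hra : r ∣ cs a
    · exact Or.inr (F2 r hr (not_dvd_of_coprime hr cab hra) h hh)
    · exact Or.inl (F1 r hr hra h hh)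
  by_cases h2a : 2 ∣ cs a
  · have hXt : XS p t := F2 2 Nat.prime_two (not_dvd_of_coprime Nat.prime_two cab h2a) t ht
    rcases hXh with hq | hp
    · exact Or.inl (H.cop' hXt hq)
    · exact Or.inr (not_dvd_of_coprime Nat.prime_two (H.cop' hp (XS.self hqa)) h2a)
  · have hXt : XS q t := F1 2 Nat.prime_two h2a t ht
    rcases hXh with hq | hp
    · by_cases h2b : 2 ∣ cs b
      · exact Or.inr (not_dvd_of_coprime Nat.prime_two (H.cop' (XS.self hpb) hq).symm h2b)
      · exact Or.inl (H.cop' (F2 2 Nat.prime_two h2b t ht) hq)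
    · exact Or.inl (H.cop' hp hXt).symm

end H49.CsAl
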