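import Cfsg.Agent.H36.E7MSpec
import Cfsg.Agent.H65.Exp

/-! E7MAX, slot FIL: the level filtration of the adjoint module. -/

set_option autoImplicit false

namespace H49.E7MFil

open Cfsg.Lie H36.E7M H65
open scoped Matrix

/-- the level of a coordinate -/
def lv : chevE7.Idx → ℤ := Sum.elim (fun _ => 0) fun r => lev r

theorem fil_iff {k : ℤ} {v : LA} : Fil k v ↔ ∀ a, lv a < k → v a = 0 :=
  ⟨fun h a => by rcases a with i | r; exacts [fun e => h.2 e i, h.1 r],
    fun h => ⟨fun r => h (.inr r), fun e i => h (.inl i) e⟩⟩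

theorem gr_iff {k : ℤ} {v : LA} : Gr k v ↔ ∀ a, lv a ≠ k → v a = 0 :=
  ⟨fun h a => by rcases a with i | r; exacts [fun e => h.2 e.symm i, h.1 r],
    fun h => ⟨fun r => h (.inr r), fun e i => h (.inl i) e.symm⟩⟩

theorem t_neg : ∀ r < 126, lev (chevE7.negIdx.getD r 0) = - lev r := by decide +kernel

theorem t_chain : ∀ r < 126, ∀ e ∈ (chevE7.chain.getD r #[]).toList, ∀ q ∈ e.2.toList,
    lev q.1 = lev e.1 + lev r := by decide +kernel

theorem shift (r : Fin 126) (a b : chevE7.Idx)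
    (h : chevE7.xMat F r 1 a b ≠ (1 : Matrix chevE7.Idx chevE7.Idx F) a b) :
    lv a = lv b + lev r ∨ lv a = lv b + 2 * lev r := by
  have n := t_neg r r.2
  rcases b with i | s <;> rcases a with j | u <;>
    simp only [ChevalleyDatum.xMat, Matrix.of_apply, Matrix.one_apply, Sum.inl.injEq, Sum.inr.injEq,
      reduceCtorEq, if_false, lv, Sum.elim_inl, Sum.elim_inr] at h ⊢
  · exact absurd rfl h
  · split_ifs at h with e
    · rw [e]; omega
    · exact absurd rfl h
  · split_ifs at h with e e'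
    · exact absurd rfl h
    · rw [e', n]; omega
    · exact absurd rfl h
  · by_cases e : s = r
    · rw [if_pos e, e] at h; exact absurd rfl h
    rw [if_neg e] at h
    by_cases e' : s.val = chevE7.negIdx.getD r.val 0
    · rw [if_pos e'] at h
      split_ifs at h with e1 e2
      · exact absurd rfl h
      · rw [e', n, e2]; omega
      · exact absurd rfl h
    rw [if_neg e'] at h
    obtain ⟨p, hp⟩ := List.exists_mem_of_ne_nil (chevE7.chainCoeff r s u) fun k => h (by simp [k])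
    simp only [ChevalleyDatum.chainCoeff, List.mem_flatMap, List.mem_filter, List.mem_map,
      decide_eq_true_eq] at hp
    obtain ⟨c, ⟨c1, c2⟩, q, ⟨q1, q2⟩, -⟩ := hp
    have := t_chain r r.2 c c1 q.1 (List.fst_mem_of_mem_zipIdx q1)
    rw [c2, q2] at this
    exact Or.inl this

theorem ρ_x {r : ℕ} (v : LA) : ρ (x r) v = X chevE7 F r 1 *ᵥ v := by rw [ρ_apply, x_val, x_eq_X]

theorem mv0 {I : Type} [Fintype I] (M : Matrix I I F) (v : I → F) (a : I)
    (h : ∀ b, M a b * v b = 0) : (M *ᵥ v) a = 0 := Finset.sum_eq_zero fun b _ => h b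

theorem sub_x {r : ℕ} (hr : r < 126) (v : LA) (a : chevE7.Idx)
    (h : ∀ b, lv a = lv b + lev r ∨ lv a = lv b + 2 * lev r → v b = 0) : (ρ (x r) v - v) a = 0 := by
  have e : ρ (x r) v - v = (chevE7.xMat F ⟨r, hr⟩ 1 - 1) *ᵥ v := by
    rw [Matrix.sub_mulVec, Matrix.one_mulVec, ρ_apply, x_val, ChevalleyDatum.x,
      dif_pos (show r < chevE7.nroots from hr)]
  rw [e]
  refine mv0 _ _ _ fun b => ?_
  by_cases k : chevE7.xMat F ⟨r, hr⟩ 1 a b = (1 : Matrix chevE7.Idx chevE7.Idx F) a b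
  · simp only [Matrix.sub_apply, k, sub_self, zero_mul]
  · rw [h b (shift ⟨r, hr⟩ a b k), mul_zero]

theorem Fil.add {k : ℤ} {v w : LA} (h : Fil k v) (h' : Fil k w) : Fil k (v + w) :=
  fil_iff.2 fun a e => by rw [Pi.add_apply, fil_iff.1 h a e, fil_iff.1 h' a e, add_zero]

theorem Fil.mono {k l : ℤ} {v : LA} (h : Fil k v) (e : l ≤ k) : Fil l v :=
  fil_iff.2 fun a e' => fil_iff.1 h a (e'.trans_le e)

theorem ind {S : Set G} {p : G → Prop} (h1 : p 1) (hS : ∀ g ∈ S, p g)
    (hm : ∀ a b, p a → p b → p (a * b)) {g : G} (hg : g ∈ Subgroup.closure S) : p g := by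
  rw [← Subgroup.mem_toSubmonoid, Subgroup.closure_toSubmonoid_of_finite] at hg
  induction hg using Submonoid.closure_induction with
  | mem a h => exact hS a h
  | one => exact h1
  | mul a b _ _ ha hb => exact hm a b ha hb

theorem filQ (q : G) (hq : q ∈ Q) : ∀ k v, Fil k v → Fil (k + 1) (ρ q v - v) := by
  refine ind (p := fun q => ∀ k v, Fil k v → Fil (k + 1) (ρ q v - v)) (fun k v _ => ?_) ?_
    (fun a b ha hb k v hv => ?_) hq
  · exact fil_iff.2 fun a _ => by simp
  · rintro _ ⟨r, h1, h2, rfl⟩ k v hv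
    have := lev_cases r
    exact fil_iff.2 fun a e => sub_x h2 v a fun b hb => fil_iff.1 hv b (by omega)
  · have h1 := hb k v hv
    have h2 := Fil.add (Fil.mono h1 (show k ≤ k + 1 by omega)) hv
    rw [sub_add_cancel] at h2
    have := Fil.add (ha k _ h2) h1
    rwa [sub_add_sub_cancel, ← Module.End.mul_apply, ← map_mul] at this

theorem filL (l : G) (hl : l ∈ L) :
    ∀ k v, (Gr k v → Gr k (ρ l v)) ∧ (Fil k v → Fil k (ρ l v)) := by
  refine ind (p := fun l => ∀ k v, (Gr k v → Gr k (ρ l v)) ∧ (Fil k v → Fil k (ρ l v)))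
    (fun k v => by simp) ?_ (fun a b ha hb k v => ?_) hl
  · rintro _ ⟨r, h1, h2, rfl⟩ k v
    have := lev_cases r
    refine ⟨fun hv => gr_iff.2 fun a e => ?_, fun hv => fil_iff.2 fun a e => ?_⟩
    · have := sub_x (r := r) (by omega) v a fun b hb => gr_iff.1 hv b (by omega)
      rwa [Pi.sub_apply, gr_iff.1 hv a e, sub_zero] at this
    · have := sub_x (r := r) (by omega) v a fun b hb => fil_iff.1 hv b (by omega)
      rwa [Pi.sub_apply, fil_iff.1 hv a e, sub_zero] at this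
  · rw [map_mul, Module.End.mul_apply]
    exact ⟨fun h => (ha k _).1 ((hb k v).1 h), fun h => (ha k _).2 ((hb k v).2 h)⟩

theorem eb_eq (r : Fin 126) : eb r = bv chevE7 F r := (bv_enc chevE7 (.inr r)).symm

theorem hT_eq : hT = bv chevE7 F (126 + 2) + bv chevE7 F (126 + 4) + bv chevE7 F (126 + 6) := by
  rw [hT, ← bv_enc, ← bv_enc, ← bv_enc]; rfl

theorem t_L : ∀ r < 93, 33 ≤ r → chevE7.neg r ≠ 0 ∧ chevE7.neg r ≠ 125 ∧ ent chevE7 r 0 = [] ∧
    ent chevE7 r 125 = [] ∧ 2 ∣ chevE7.cartan 2 r + chevE7.cartan 4 r + chevE7.cartan 6 r := by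
  decide +kernel

theorem fixL (l : G) (hl : l ∈ L) : ρ l (eb 0) = eb 0 ∧ ρ l (eb 125) = eb 125 ∧ ρ l hT = hT := by
  refine ind (p := fun l => ρ l (eb 0) = eb 0 ∧ ρ l (eb 125) = eb 125 ∧ ρ l hT = hT) (by simp) ?_
    (fun a b ha hb => ?_) hl
  · rintro _ ⟨r, h1, h2, rfl⟩
    obtain ⟨a1, a2, a3, a4, a5⟩ := t_L r (by omega) h1
    have hr : r < chevE7.nroots := by change r < 126; omega
    refine ⟨?_, ?_, ?_⟩
    · rw [ρ_x, eb_eq]
      exact (X_bv_ent hr (by decide) a1.symm 1).trans (by rw [a3, pv_nil, add_zero]; rfl)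
    · rw [ρ_x, eb_eq]
      exact (X_bv_ent hr (by decide) a2.symm 1).trans (by rw [a4, pv_nil, add_zero]; rfl)
    · have e : ∀ i < 7, X chevE7 F r 1 *ᵥ bv chevE7 F (126 + i) =
          bv chevE7 F (126 + i) - ((chevE7.cartan i r : F) * 1) • bv chevE7 F r :=
        fun i hi => X_bv_h hr 1 hi
      have c := (ZMod.intCast_zmod_eq_zero_iff_dvd _ 2).2 a5
      rw [ρ_x, hT_eq, Matrix.mulVec_add, Matrix.mulVec_add, e 2 (by omega), e 4 (by omega),
        e 6 (by omega)]
      push_cast at c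
      linear_combination (norm := module) (-c) • bv chevE7 F r
  · simp only [map_mul, Module.End.mul_apply, ha, hb, and_self]

theorem z0 : ρ z (eb 0) = eb 0 + hT + eb 125 := by
  have e := X_bv_neg (D := chevE7) (R := F) (r := 125) (by decide) (by decide +kernel)
    (by decide +kernel) 1
  have n : chevE7.neg 125 = 0 := by decide +kernel
  have c : coL chevE7 125 = [(126, 2), (127, 2), (128, 3), (129, 4), (130, 3), (131, 2), (132, 1)] := by
    decide +kernel
  have c2 : ((2 : ℤ) : F) = 0 := rfl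
  have c3 : ((3 : ℤ) : F) = 1 := rfl
  have c4 : ((4 : ℤ) : F) = 0 := rfl
  rw [n, c] at e
  rw [z, ρ_x, eb_eq, eb_eq, hT_eq]
  refine e.trans ?_
  simp only [vec_cons, vec_nil, c2, c3, c4, zero_smul, one_smul, zero_add, add_zero, Int.cast_one,
    one_pow, sub_eq_add_neg, ZModModule.neg_eq_self, add_assoc]
  rfl

theorem t_Q : ∀ i < 32, chevE7.neg (93 + i) ≠ 0 ∧
    (ent chevE7 (93 + i) 0 = [(i + 1, 1)] ∨ ent chevE7 (93 + i) 0 = [(i + 1, -1)]) := by
  decide +kernel

theorem x0 (i : Fin 32) : ρ (x (93 + i)) (eb 0) = eb 0 + eb (lo i) := by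
  obtain ⟨a1, a2⟩ := t_Q i i.2
  have hr : 93 + i < chevE7.nroots := by change _ < 126; omega
  have c : ((-1 : ℤ) : F) = 1 := rfl
  rw [ρ_x, eb_eq, eb_eq]
  refine (X_bv_ent hr (by decide) a1.symm 1).trans ?_
  rcases a2 with a | a <;> rw [a] <;>
    simp only [pv_cons, pv_nil, c, Int.cast_one, one_pow, mul_one, one_smul, add_zero] <;> rfl

theorem jobFIL : JobFIL := by
  refine ⟨filQ, filL, fixL, z0, fun i => ⟨x0 i, ?_⟩⟩
  have hq : x (93 + i) ∈ Q := x_mem_Q (by omega) (by omega)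
  have f0 : Fil 0 hT := ⟨fun r _ => by simp [hT, ix, ih], fun h => absurd h (lt_irrefl _)⟩
  have f1 : Fil 1 (eb 125) := ⟨fun r h => by
    refine Pi.single_eq_of_ne (fun e => ?_) _
    rw [Sum.inr.inj e] at h
    exact absurd h (by decide), fun _ j => by simp [eb, ix, ih]⟩
  have := Fil.add (Fil.add (filQ _ hq 0 _ f0) (Fil.mono (filQ _ hq 1 _ f1) (by omega))) f1
  rw [map_mul, Module.End.mul_apply, z0, map_add, map_add, x0]
  change Fil 1 _
  convert this using 1 <;> abel

end H49.E7MFil
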