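import Cfsg.Agent.H40.E82Spec

/-! Tower E82, slot Bil: products of small factors have no Steinberg part. -/

set_option autoImplicit false

namespace H49.E82Bil

open H40.E82 H56.SL2M Module
open scoped MatrixGroups

universe u

theorem t1 : ∀ r < 64, ∀ q < 64, r &&& q = 0 → (r + q) &&& r = r := by decide +kernel

theorem t2 : (∀ r < 64, 4 < (sb r).card ∨ 4 < (sb (63 - r)).card) ∧ 4 < (sb 63).card := by
  decide +kernel

theorem sb_le {r q j : ℕ} (hr : r < 64) (hq : q ∈ sb j) (h : r &&& q = 0) (h' : r + q ∈ sb j) :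
    (sb r).card ≤ (sb j).card := by
  simp only [sb, Finset.mem_filter, Finset.mem_range] at hq h'
  have e : r &&& j = r := by
    have := t1 r hr q hq.1 h
    rw [← this, Nat.land_comm (r + q), Nat.land_assoc, h'.2]
  refine Finset.card_le_card fun t ht => ?_
  simp only [sb, Finset.mem_filter] at ht ⊢
  exact ⟨ht.1, by rw [← ht.2, Nat.land_assoc, e]⟩

variable {F : Type u} [Field F] [Fintype F] {k V : Type} [Field k] [CharP k 2]
  [AddCommGroup V] [Module k V] {ι : F →+* k} {ρ : Representation k SL(2, F) V}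

omit [CharP k 2] in
theorem sum0 (hq : Fintype.card F = 64) {m : ℕ} (h : m < 126) (h' : m ≠ 63) :
    ∑ a : F, ι a ^ m = 0 := by
  simp only [← map_pow, ← map_sum]
  by_cases h1 : m < 63
  · rw [FiniteField.sum_pow_lt_card_sub_one F m (by omega), map_zero]
  obtain ⟨l, rfl⟩ : ∃ l, m = Fintype.card F + l := ⟨m - 64, by omega⟩
  have e : ∀ x : F, x ^ (Fintype.card F + l) = x ^ (l + 1) := fun x => by
    rw [pow_add, FiniteField.pow_card, pow_succ']
  simp only [e]
  rw [FiniteField.sum_pow_lt_card_sub_one F _ (by omega), map_zero]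

theorem drop (a : JobA.{u}) (hq : Fintype.card F = 64) {W W' : Submodule k V} {j r : ℕ}
    (s : Step ι ρ W W' j) (hj : (sb j).card ≤ 4) (hr : r < 64) (h : 4 < (sb r).card) {v : V}
    (hv : v ∈ W') : A ι ρ r v ∈ W := by
  obtain ⟨-, a2, -, -, -, -, -, a8⟩ := a ι ρ hq.le
  obtain ⟨-, -, i1, -, z, -, s1, -, s3, -⟩ := s
  obtain ⟨c, hc⟩ := s1 v hv
  rw [← sub_add_cancel v (∑ r ∈ sb j, c r • A ι ρ r z), map_add, map_sum]
  refine add_mem (a8 W i1 r _ hc) (sum_mem fun q hq => ?_)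
  rw [map_smul, ← End.mul_apply, a2]
  split_ifs with e
  · exact W.smul_mem _ (s3 _ fun k => by have := sb_le hr hq e k; omega)
  · simp

theorem step (a : JobA.{u}) (hq : Fintype.card F = 64) {W W' U U' : Submodule k V} {i j : ℕ}
    (s : Step ι ρ W W' i) (t : Step ι ρ U U' j) (hi : (sb i).card ≤ 4) (hj : (sb j).card ≤ 4)
    (b : V →ₗ[k] V →ₗ[k] V) (hb : ∀ g v w, b (ρ g v) (ρ g w) = ρ g (b v w))
    (h1 : ∀ v ∈ W, ∀ u ∈ U', b v u = 0) (h2 : ∀ v ∈ W', ∀ u ∈ U, b v u = 0) {v u : V}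
    (hv : v ∈ W') (hu : u ∈ U') : E ρ (b v u) = 0 := by
  obtain ⟨a1, -, -, a4, a5, -, -, a8⟩ := a ι ρ hq.le
  have N : ∀ v ∈ W', ∀ u ∈ U', A ι ρ (Fintype.card F - 1) (b v u) = 0 := fun v hv u hu => by
    rw [a4, LinearMap.sum_apply]
    simp only [← hb]
    simp only [a1, LinearMap.sum_apply, LinearMap.smul_apply, map_sum, map_smul, Finset.smul_sum,
      smul_smul, ← pow_add]
    rw [Finset.sum_comm]
    refine Finset.sum_eq_zero fun s' hs => ?_
    rw [Finset.sum_comm]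
    refine Finset.sum_eq_zero fun r hr => ?_
    rw [Finset.mem_range, hq] at hs hr
    rw [← Finset.sum_smul]
    by_cases e : 4 < (sb r).card
    · rw [h1 _ (drop a hq s hi hr e hv) _ (a8 _ t.2.2.2.1 _ _ hu), smul_zero]
    by_cases e' : 4 < (sb s').card
    · rw [h2 _ (a8 _ s.2.2.2.1 _ _ hv) _ (drop a hq t hj hs e' hu), smul_zero]
    rw [sum0 hq, zero_smul]
    · by_contra k
      exact e (by rw [show r = 63 by omega]; exact t2.2)
    · exact fun k => (t2.1 r hr).elim e fun f => e' (by rwa [show s' = 63 - r by omega])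
  rw [a5, LinearMap.add_apply, N v hv u hu, zero_add, LinearMap.sum_apply]
  refine Finset.sum_eq_zero fun x _ => ?_
  simp only [End.mul_apply]
  rw [← hb (xx x) v, ← hb ww (ρ (xx x) v), N _ (s.2.2.2.1 _ _ (s.2.2.2.1 _ _ hv)) _
    (t.2.2.2.1 _ _ (t.2.2.2.1 _ _ hu)), map_zero, map_zero]

theorem jobBil (a : JobA.{u}) : JobBil.{u} := by
  intro F _ _ k V _ _ _ _ ι ρ hq M J hM hJ b hb hE
  suffices h : ∀ W I, Fac ι ρ W I → (∀ j ∈ I, (sb j).card ≤ 4) → ∀ U J, Fac ι ρ U J →
      (∀ j ∈ J, (sb j).card ≤ 4) → ∀ v ∈ W, ∀ u ∈ U, b v u = 0 from h M J hM hJ M J hM hJ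
  intro W I hW
  induction hW with
  | bot => intro _ U J _ _ v hv u _; simp [(Submodule.mem_bot k).1 hv]
  | step _ s ih =>
    intro hI U J hU
    induction hU with
    | bot => intro _ v _ u hu; simp [(Submodule.mem_bot k).1 hu]
    | step f t ih' =>
      intro hJ v hv u hu
      exact hE _ (Submodule.subset_span ⟨(v, u), rfl⟩) (step a hq s t (hI _ (Multiset.mem_cons_self _ _))
        (hJ _ (Multiset.mem_cons_self _ _)) b hb
        (ih (fun j h => hI j (Multiset.mem_cons_of_mem h)) _ _ (f.step t) hJ)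
        (ih' fun j h => hJ j (Multiset.mem_cons_of_mem h)) hv hu)

end H49.E82Bil
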