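/- Tower FB, job NO: odd normal `p`-subgroups of the three-point stabiliser. -/
import Cfsg.Agent.H11.FBSpec

set_option autoImplicit false

namespace H49.FbNO

open MulAction Subgroup H11.FB

universe u v

/-- A subgroup acting freely on an invariant set has order dividing its size. -/
theorem card_dvd_of_free {G : Type u} {Ω : Type v} [Group G] [MulAction G Ω] (C : Subgroup G)
    (S : Set Ω) (hS : ∀ x ∈ C, ∀ w ∈ S, x • w ∈ S) (hf : ∀ x ∈ C, ∀ w ∈ S, x • w = w → x = 1) :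
    Nat.card C ∣ S.ncard := by
  let T : SubMulAction C Ω := ⟨S, fun x _ hw => hS x x.2 _ hw⟩
  have e := selfEquivOrbitsQuotientProd (G := C) (X := T) fun w => eq_bot_iff.2 fun x hx =>
    mem_bot.2 (Subtype.ext (hf x x.2 w w.2 (congrArg Subtype.val (mem_stabilizer_iff.1 hx))))
  have h1 : S.ncard = Nat.card T := (Nat.card_coe_set_eq S).symm
  rw [h1, Nat.card_congr e, Nat.card_prod]
  exact Dvd.intro_left _ rfl

/-- A normal subgroup of `G_{abc}` fixing `d` is trivial. -/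
theorem eq_bot_of_fix {G : Type u} {Ω : Type v} [Group G] [MulAction G Ω] [FaithfulSMul G Ω]
    {a b c d : Ω} {K H O : Subgroup G} (hy : Hy a b c d K H) (hO : O ≤ X3 G a b c)
    (hn : Nm (X3 G a b c) O) (hd : ∀ o ∈ O, o • d = d) : O = ⊥ := by
  refine eq_bot_iff.2 fun o ho => mem_bot.2 (eq_of_smul_eq_smul (α := Ω) fun w => ?_)
  rw [one_smul]
  obtain ⟨h1, h2, h3⟩ := mem_X3.1 (hO ho)
  by_cases wa : a = w
  · exact wa ▸ h1
  by_cases wb : b = w
  · exact wb ▸ h2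
  by_cases wc : c = w
  · exact wc ▸ h3
  obtain ⟨g, g1, g2, g3, rfl⟩ := hy.exists_smul hy.ne
    (⟨hy.ne.1, hy.ne.2.1, wa, hy.ne.2.2.2.1, wb, wc⟩ : D4 a b c w)
  have := hn g⁻¹ ((X3 G a b c).inv_mem (mem_X3.2 ⟨g1, g2, g3⟩)) o ho
  rw [inv_inv] at this
  exact conj_smul_iff.1 (hd _ this)

theorem jobNO : JobNO.{u, v} := by
  intro TQ G Ω _ _ _ _ _ _ a b c d K H P O h p cx hh hp pp p2 hO hn hpg
  have fr := cx.hy.fr
  have hL : h ∈ L4 G a b c d := fr.Hle hh
  have LX : L4 G a b c d ≤ X3 G a b c := inf_le_left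
  have h1 : h ≠ 1 := fun e => hp.one_lt.ne' (by rw [e, orderOf_one])
  obtain ⟨ha, hb, hc, hd⟩ := mem_L4.1 hL
  refine ⟨fun hf => ?_, ?_⟩
  · have PL : P ≤ L4 G a b c d := cx.pd.le.trans fr.Kle
    have h2 : orderOf h ≠ 2 := fun e =>
      (Nat.not_even_iff_odd.2 cx.odd) (even_iff_two_dvd.2 (e ▸ orderOf_dvd_natCard H hh))
    have hc := TQ (y := 1) pp p2 hpg cx.pd.pg (fun m hm => hn m (LX (PL hm))) hp h2 (hn h (LX hL))
      (fun x hx => cx.pd.conj_mem fr (fun l hl => mul_mem (mul_mem hL hl) (inv_mem hL)) hx)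
      (fun x hx => fr.fpf hh h1 (cx.pd.le hx)) O.one_mem (by simp) (by simp) (by simp)
      (fun x hx e => by rw [hf x hx e]; exact one_mem _) (Or.inl rfl)
    have dP : d ∈ fixedPoints P Ω := mem_fixedPoints.2 fun m => (mem_L4.1 (PL m.2)).2.2.2
    refine eq_bot_of_fix cx.hy hO hn fun o ho => ?_
    by_cases h7 : (fixedPoints P Ω).ncard = 7
    · exact cx.ph1.fixC h7 o (fun x hx => (hc x hx o ho).symm) d dP
    · obtain ⟨x, hx, rfl⟩ := exists_comm (hn h (LX hL)) hf ho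
      have h3 : x⁻¹ • d ∈ fixedPoints P Ω := mem_fixedPoints.2 fun m => by
        change (m : G) • x⁻¹ • d = _
        rw [← mul_smul, hc m m.2 _ (O.inv_mem hx), mul_smul, (mem_L4.1 (PL m.2)).2.2.2]
      rw [mul_smul, mul_smul, mul_smul, inv_smul_eq_iff.2 hd.symm, cx.ph1.fixL h7 h hL _ h3,
        smul_inv_smul]
  · obtain ⟨n1, n2, n3, n4, n5, n6⟩ := cx.hy.ne
    have hs : ({a, b, c} : Set Ω) ⊆ fixedBy Ω h := by
      rintro _ (rfl | rfl | rfl)
      exacts [ha, hb, hc]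
    have h3 : ({a, b, c} : Set Ω).ncard = 3 := Set.ncard_eq_three.2 ⟨a, b, c, n1, n2, n4, rfl⟩
    rw [← h3, ← Set.ncard_diff hs]
    refine card_dvd_of_free _ _ (fun x hx w hw => ⟨?_, fun m => hw.2 ?_⟩) fun x hx w hw e => ?_
    · change h • x • w = x • w
      rw [← mul_smul, mem_centralizer_iff.1 hx.2 h rfl, mul_smul, show h • w = w from hw.1]
    · obtain ⟨x1, x2, x3⟩ := mem_X3.1 (hO hx.1)
      rcases m with m | m | m
      · exact Or.inl (MulAction.injective x (m.trans x1.symm))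
      · exact Or.inr (Or.inl (MulAction.injective x (m.trans x2.symm)))
      · exact Or.inr (Or.inr (MulAction.injective x (m.trans x3.symm)))
    · have hw2 := hw.2
      simp only [Set.mem_insert_iff, Set.mem_singleton_iff, not_or] at hw2
      obtain ⟨g, gN, g1, g2, g3, g4⟩ := (cx.th1 h hh hp).tr a b c w a b c d
        ⟨n1, n2, Ne.symm hw2.1, n4, Ne.symm hw2.2.1, Ne.symm hw2.2.2⟩ cx.hy.ne ha hb hc hw.1
        ha hb hc hd
      have m1 : g * x * g⁻¹ ∈ O := hn g (mem_X3.2 ⟨g1, g2, g3⟩) x hx.1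
      have m2 : g * x * g⁻¹ ∈ L4 G a b c d := ⟨hO m1, by
        change (g * x * g⁻¹) • d = d
        rw [mul_smul, mul_smul, inv_smul_eq_iff.2 g4.symm, e, g4]⟩
      have m3 : O ⊓ L4 G a b c d ≤ K := fr.pgroup_le pp inf_le_right
        (fun l hl y hy => ⟨hn l (LX hl) y hy.1, (L4 G a b c d).mul_mem
          ((L4 G a b c d).mul_mem hl hy.2) ((L4 G a b c d).inv_mem hl)⟩)
        hpg.to_inf_left
      have m4 : g * h * g⁻¹ ∈ H :=
        (zpowers_le.2 hh) ((mem_normalizer_iff.1 gN h).1 (mem_zpowers h))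
      have m5 := fr.fpf m4 (by simpa using h1) (m3 ⟨m1, m2⟩) (by
        calc g * h * g⁻¹ * (g * x * g⁻¹) = g * (h * x) * g⁻¹ := by group
          _ = g * x * g⁻¹ * (g * h * g⁻¹) := by rw [mem_centralizer_iff.1 hx.2 h rfl]; group)
      simpa using m5

end H49.FbNO
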