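import Cfsg.Agent.H36.NGSpec
import Cfsg.Agent.H25.SylowNum
import Cfsg.Agent.H18.PSolv

/-! Slot NG-RED: groups with fewer than `p ^ 2` Sylow `p`-subgroups, reduction to simple groups. -/

set_option autoImplicit false

namespace H49.NgRed

open Cfsg Subgroup H18

universe u

variable {p : ℕ} [hp : Fact p.Prime]

theorem one_or {a b : ℕ} (ha : a % p = 1) (hb : b % p = 1) (h : a * b < p ^ 2) : a = 1 ∨ b = 1 := by
  by_contra hc
  have k : ∀ c, c % p = 1 → c ≠ 1 → p ≤ c := fun c h1 h2 => by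
    by_contra h3
    exact h2 (by rwa [Nat.mod_eq_of_lt (by omega)] at h1)
  have := Nat.mul_le_mul (k a ha fun e => hc (Or.inl e)) (k b hb fun e => hc (Or.inr e))
  rw [pow_two] at h
  omega

theorem mod_one (G : Type*) [Group G] [Finite G] : Nat.card (Sylow p G) % p = 1 :=
  Eq.trans (card_sylow_modEq_one p G) (Nat.mod_eq_of_lt hp.out.one_lt)

theorem mul_mod {a b : ℕ} (ha : a % p = 1) (hb : b % p = 1) : a * b % p = 1 := by
  rw [Nat.mul_mod, ha, hb, Nat.mod_eq_of_lt hp.out.one_lt]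

theorem card_eq_one_iff {G : Type*} [Group G] [Finite G] (P : Sylow p G) :
    Nat.card (Sylow p G) = 1 ↔ (P : Subgroup G).Normal := by
  rw [P.card_eq_index_normalizer, index_eq_one]
  exact normalizer_eq_top_iff (H := (P : Subgroup G))

theorem ne_one {G : Type*} [Group G] [Finite G] (h : ¬ IsPSolvable p G) :
    Nat.card (Sylow p G) ≠ 1 := fun e => by
  obtain ⟨P⟩ : Nonempty (Sylow p G) := inferInstance
  have := (card_eq_one_iff P).1 e
  exact h (isPSolvable_of_normal_of_quotient (P : Subgroup G) (isPSolvable_of_isPGroup P.isPGroup')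
    (isPSolvable_of_coprime ((Nat.Prime.coprime_iff_not_dvd hp.out).2 P.not_dvd_index).symm))

theorem solv (G : Type u) [Group G] [Finite G] (h : IsPSolvable p G)
    (hlt : Nat.card (Sylow p G) < p ^ 2) : ∃ q k : ℕ, q.Prime ∧ Nat.card (Sylow p G) = q ^ k := by
  have h1 : 1 % p = 1 ∧ (1 < p ^ 2 → ∃ q k : ℕ, q.Prime ∧ 1 = q ^ k) :=
    ⟨Nat.mod_eq_of_lt hp.out.one_lt, fun _ => ⟨2, 0, Nat.prime_two, rfl⟩⟩
  refine (H25.card_sylow_induction (p := p)
    (fun m => m % p = 1 ∧ (m < p ^ 2 → ∃ q k : ℕ, q.Prime ∧ m = q ^ k)) h1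
    (fun a b ha hb => ⟨mul_mod ha.1 hb.1, fun h => ?_⟩) (fun m hm h => ⟨h, fun _ => ?_⟩)
    (fun X _ => Finite X ∧ IsPSolvable p X) (fun X _ H h => ?_) (fun X _ N _ h => ?_)
    (fun S _ _ hS h => ?_) G ⟨‹_›, h⟩).2 hlt
  · rcases one_or ha.1 hb.1 h with rfl | rfl
    · rw [one_mul] at h ⊢; exact hb.2 h
    · rw [mul_one] at h ⊢; exact ha.2 h
  · obtain ⟨q, k, hq, -, rfl⟩ := (isPrimePow_nat_iff m).1 hm
    exact ⟨q, k, hq, rfl⟩
  · have := h.1
    exact ⟨inferInstance, isPSolvable_subgroup h.2 H⟩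
  · have := h.1
    exact ⟨inferInstance, isPSolvable_quotient h.2 N⟩
  · obtain ⟨P⟩ : Nonempty (Sylow p S) := inferInstance
    obtain ⟨M, hM, h0, -, h2⟩ := isPSolvable_exists_normal_le h.2 ⊤ top_ne_bot
    obtain rfl := hM.eq_bot_or_eq_top.resolve_left h0
    rw [(card_eq_one_iff P).2 ?_]
    · exact h1
    rcases h2 with h2 | h2
    · exact P.is_maximal' h2 le_top ▸ hM
    · obtain ⟨k, hk⟩ := P.isPGroup'.exists_card_eq
      rw [card_eq_one.1 (Nat.eq_one_of_dvd_coprimes (h2.pow_right k) (card_dvd_of_le le_top) hk.dvd)]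
      infer_instance

theorem nsolv (n : ℕ) : ∀ (G : Type u) [Group G] [Finite G], Nat.card G = n →
    Nat.card (Sylow p G) < p ^ 2 → ¬ IsPSolvable p G → ∃ (S : Type u) (_ : Group S) (_ : Finite S),
      IsSimpleGroup S ∧ ¬ IsMulCommutative S ∧ p ∣ Nat.card S ∧
      Nat.card (Sylow p S) = Nat.card (Sylow p G) := by
  induction n using Nat.strong_induction_on with
  | _ n ih =>
  intro G _ _ hn hlt h
  by_cases hs : IsSimpleGroup G
  · refine ⟨G, _, ‹_›, hs, fun hc => h ?_, by_contra fun hd => h (isPSolvable_of_coprime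
      ((Nat.Prime.coprime_iff_not_dvd hp.out).2 hd).symm), rfl⟩
    have := Group.isSolvable_of_comm hc.is_comm.comm
    exact isPSolvable_of_isSolvable p
  have : Nontrivial G := by
    by_contra hc
    have := not_nontrivial_iff_subsingleton.1 hc
    exact h (isPSolvable_of_isSolvable p)
  obtain ⟨K, hK, h0, h1⟩ : ∃ K : Subgroup G, K.Normal ∧ K ≠ ⊥ ∧ K ≠ ⊤ := by
    by_contra hc
    exact hs ⟨fun K hK => by_contra fun e => hc ⟨K, hK, fun a => e (Or.inl a), fun a => e (Or.inr a)⟩⟩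
  obtain ⟨P⟩ : Nonempty (Sylow p G) := inferInstance
  have e1 := H25.card_sylow_eq_quotient_mul P K
  have e2 := K.card_mul_index
  have e3 := one_lt_card_iff_ne_bot K |>.2 h0
  have e4 := one_lt_index_of_ne_top h1
  by_cases hq : IsPSolvable p (G ⧸ K)
  · have hk : ¬ IsPSolvable p K := fun a => h (isPSolvable_of_normal_of_quotient K a hq)
    rw [H25.card_sylow_sup_eq_mul P K, mul_left_comm] at e1
    rw [e1] at hlt ⊢
    have e5 := (one_or (mod_one _) (mul_mod (mod_one _) (mod_one _)) hlt).resolve_left (ne_one hk)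
    rw [e5, mul_one] at hlt ⊢
    exact ih _ (by nlinarith) K rfl hlt hk
  · rw [e1] at hlt ⊢
    have e5 := (one_or (mod_one _) (mod_one _) hlt).resolve_left (ne_one hq)
    rw [e5, mul_one] at hlt ⊢
    exact ih _ (by rw [← index_eq_card]; nlinarith) (G ⧸ K) rfl hlt hq

theorem jobRed : H36.NG.JobRed.{u} := fun G _ _ p _ hlt => by
  by_cases h : IsPSolvable p G
  · exact Or.inl ⟨h, solv G h hlt⟩
  · exact Or.inr ⟨h, nsolv _ G rfl hlt h⟩

end H49.NgRed
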