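/- PARROTT, job COV: every point is at distance at most three from a fixed line. -/
import Cfsg.Agent.Base
import Cfsg.Agent.H63.OcAsm1

set_option autoImplicit false
set_option linter.unusedSectionVars false
set_option linter.unusedSimpArgs false
set_option linter.unnecessarySeqFocus false

open Subgroup H63.Oc H63.Oc.Asm

universe u v

namespace H49.Oc

theorem mid {G : Type*} [Group G] [Finite G] {s t : G} (hs : s * s = 1) (ht : t * t = 1)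
    (h : ¬ IsConj s t) : ∃ c, c ≠ 1 ∧ c * c = 1 ∧ c * s = s * c ∧ c * t = t * c := by
  have s1 : s⁻¹ = s := inv_eq_of_mul_eq_one_right hs
  have t1 : t⁻¹ = t := inv_eq_of_mul_eq_one_right ht
  have e1 : s * (s * t) * s⁻¹ = (s * t)⁻¹ := by
    rw [mul_inv_rev, s1, t1, ← mul_assoc, hs, one_mul]
  have e2 : ∀ n : ℕ, s * (s * t) ^ n * s⁻¹ = ((s * t) ^ n)⁻¹ := fun n => by
    rw [← conj_pow, e1, inv_pow]
  have hp := orderOf_pos (s * t)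
  rcases Nat.even_or_odd (orderOf (s * t)) with ⟨n, hn⟩ | ⟨k, hk⟩
  · have c2 : (s * t) ^ n * (s * t) ^ n = 1 := by rw [← pow_add, ← hn, pow_orderOf_eq_one]
    have c3 : (s * t) ^ n * s = s * (s * t) ^ n := by
      have := e2 n
      rw [inv_eq_of_mul_eq_one_right c2, mul_inv_eq_iff_eq_mul] at this
      exact this.symm
    refine ⟨_, pow_ne_one_of_lt_orderOf (by omega) (by omega), c2, c3, ?_⟩
    have c4 : Commute ((s * t) ^ n) (s * (s * t)) :=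
      Commute.mul_right c3 (Commute.self_pow _ n).symm
    rwa [← mul_assoc, hs, one_mul] at c4
  · refine absurd (isConj_iff.2 ⟨((s * t) ^ (k + 1))⁻¹, ?_⟩) h
    have e3 : (s * t) ^ (k + 1) * (s * t) ^ (k + 1) = s * t := by
      rw [← pow_add, show k + 1 + (k + 1) = 2 * k + 1 + 1 by ring, ← hk, pow_succ,
        pow_orderOf_eq_one, one_mul]
    rw [inv_inv, ← e2]
    calc _ = s * ((s * t) ^ (k + 1) * (s * t) ^ (k + 1)) := by group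
      _ = t := by rw [e3, ← mul_assoc, hs, one_mul]

variable {K : Type v} [Field K] [Finite K] [CharP K 2] {T : TF K} {G : Type u} [Group G] [Finite G]
  {A : AD T G}

/-- the stabiliser of the point -/
abbrev N2 (A : AD T G) : Subgroup G := normalizer (A.im (sZ T) : Set G)
/-- the stabiliser of the line -/
abbrev N1 (A : AD T G) : Subgroup G := normalizer (A.im (sW T) : Set G)

theorem n8_inv (A : AD T G) : A.n8⁻¹ = A.n8 := inv_eq_of_mul_eq_one_right A.n8_sq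

theorem cj1 (A : AD T G) {c d : Co T} (hc : c ∈ sQ1 T) (e : c.nu1 = d) :
    A.n1 * A.ι c * A.n1⁻¹ = A.ι d := by rw [n1_inv, A.n1_conj c hc, e]

theorem cj8 (A : AD T G) {c d : Co T} (hc : c ∈ sQ T) (e : c.nu8 = d) :
    A.n8 * A.ι c * A.n8⁻¹ = A.ι d := by rw [n8_inv, A.n8_conj c hc, e]

theorem n1_x4 (A : AD T G) (t : K) : A.n1 * A.ι (x4 T t) * A.n1⁻¹ = A.ι (x6 T t) := n1_ww A 0 t
theorem n1_x6 (A : AD T G) (t : K) : A.n1 * A.ι (x6 T t) * A.n1⁻¹ = A.ι (x4 T t) := n1_ww A t 0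
theorem n8_x6 (A : AD T G) (t : K) : A.n8 * A.ι (x6 T t) * A.n8⁻¹ = A.ι (x2 T t) :=
  cj8 A (by simp [mem_sQ, x6]) (by ext <;> simp [Co.nu8, x6, x2])
theorem n1_x2 (A : AD T G) (t : K) : A.n1 * A.ι (x2 T t) * A.n1⁻¹ = A.ι (x8 T t) :=
  cj1 A (by simp [mem_sQ1, x2]) (by ext <;> simp [Co.nu1, x8, x2])

/-- `w = n₁ n₈ n₁` -/
def ww3 (A : AD T G) : G := A.n1 * A.n8 * A.n1

theorem w_x4 (A : AD T G) (t : K) : ww3 A * A.ι (x4 T t) * (ww3 A)⁻¹ = A.ι (x8 T t) := by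
  rw [← n1_x2, ← n8_x6, ← n1_x4, ww3]; group

theorem n1_N1 (A : AD T G) : A.n1 ∈ N1 A := mem_nor_of fun _ ⟨x, hx, e⟩ => by
  rw [← e, eq_ww hx, n1_ww]; exact ⟨_, ww_mem _ _, rfl⟩

theorem h_N1 (A : AD T G) (p : Kˣ × Kˣ) : A.h p ∈ N1 A := mem_nor_of fun _ ⟨x, hx, e⟩ => by
  rw [← e, A.tor.h_conj]
  refine ⟨_, ?_, rfl⟩
  have hx' := (mem_sW T).1 hx
  simp [mem_sW, dg, hx']

theorem h_N2 (A : AD T G) (p : Kˣ × Kˣ) : A.h p ∈ N2 A := mem_nor_of fun _ ⟨x, hx, e⟩ => by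
  rw [← e, A.tor.h_conj, eq_x4 hx, dg_x4]
  exact ⟨_, x4_mem _, rfl⟩

theorem n8_N1 (A : AD T G) : A.n8 ∉ N1 A := fun h => by
  obtain ⟨x, hx, e⟩ := (mem_normalizer_iff.1 h _).1 ⟨_, ww_mem (T := T) 1 0, rfl⟩
  rw [← x6_eq_ww, n8_x6] at e
  have := congrArg Co.a2 (A.inj e)
  rw [eq_ww hx] at this
  simp [ww, x2] at this

theorem exists_h (A : AD T G) {t : K} (ht : t ≠ 0) :
    ∃ p, A.h p * A.τ * (A.h p)⁻¹ = A.ι (x4 T t) :=
  ⟨(Units.mk0 t ht ^ 2, (Units.mk0 t ht)⁻¹), by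
    rw [CS.τ, A.tor.h_conj, dg_x4, chi4_sl]; simp⟩

/-- every involution of the line is a point of the line -/
theorem W_pt (A : AD T G) {s : G} (hs : s ∈ A.im (sW T)) (h1 : s ≠ 1) :
    ∃ n ∈ N1 A, n * A.τ * n⁻¹ = s := by
  have hx1 : ∀ c, A.ι (x1 T c) ∈ N1 A := fun c =>
    mem_nor_of fun _ ⟨x, hx, e⟩ => by
      rw [← e, eq_ww hx, ← map_inv, ← map_mul, ← map_mul, x1_ww]; exact ⟨_, ww_mem _ _, rfl⟩
  obtain ⟨x, hx, rfl⟩ := hs
  rw [eq_ww hx] at h1 ⊢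
  generalize x.a6 = a at *
  generalize x.a4 = r at *
  by_cases ha : a = 0
  · subst ha
    obtain ⟨p, e⟩ := exists_h A (t := r) (fun e => h1 (by rw [e]; exact map_one A.ι))
    exact ⟨_, h_N1 A p, e⟩
  · obtain ⟨p, e⟩ := exists_h A ha
    refine ⟨A.ι (x1 T (r / a)) * A.n1 * A.h p, mul_mem (mul_mem (hx1 _) (n1_N1 A)) (h_N1 A p), ?_⟩
    calc _ = A.ι (x1 T (r / a)) * (A.n1 * (A.h p * A.τ * (A.h p)⁻¹) * A.n1⁻¹) *
          (A.ι (x1 T (r / a)))⁻¹ := by group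
      _ = _ := by
        rw [e, n1_x4, ← map_inv, ← map_mul, ← map_mul, x6_eq_ww, x1_ww, zero_add,
          div_mul_cancel₀ _ ha]

section L
variable (L : Loc A.toCS)
include L

theorem C_N2 : A.C ≤ N2 A := L.bc.nor _ (by simp)

theorem S_N1 (c : Co T) : A.ι c ∈ N1 A :=
  L.bh.nS _ (by simp) (le_normalizer (show A.ι c ∈ A.S from ⟨c, rfl⟩))

theorem h0_N1 (p : T0 T) : A.h0 p ∈ N1 A := A.tor.h_h0 p ▸ h_N1 A p

theorem nz {g : G} (h : g * A.τ * g⁻¹ ∈ A.im (sZ T)) : g ∈ N2 A :=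
  L.bh.nZ.ge (L.bh.nz g h)

theorem N2_of_eq {g k : G} (h : g * A.τ * g⁻¹ = k * A.τ * k⁻¹) : k⁻¹ * g ∈ N2 A :=
  nz L (by
    rw [show k⁻¹ * g * A.τ * (k⁻¹ * g)⁻¹ = k⁻¹ * (g * A.τ * g⁻¹) * k by group, h,
      show k⁻¹ * (k * A.τ * k⁻¹) * k = A.τ by group]
    exact τ_mem _)

theorem C_of_inv {b : G} (h2 : b * b = 1) (h : b * A.τ = A.τ * b) : b ∈ A.C :=
  L.bh.two b (L.hy.nrm b h) ⟨1, by rw [pow_one, pow_two, h2]⟩

theorem x48 {v : K} (hv : v ≠ 0) : IsConj (A.ι (x4 T v * x8 T 1)) (A.ι (x5 T 1)) := by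
  obtain ⟨g, -, e⟩ := L.ty.cls26 v hv
  refine isConj_iff.2 ⟨g * A.n1, ?_⟩
  rw [← e, ← cj1 A (c := x4 T v * x8 T 1) (d := x2 T 1 * x6 T v) (by simp [mem_sQ1, x4, x8])
    (by ext <;> simp [Co.nu1, x4, x8, x2, x6])]
  group

/-- a point that commutes with `τ` -/
theorem pt_cases {g : G} (h : g * A.τ * g⁻¹ * A.τ = A.τ * (g * A.τ * g⁻¹)) :
    g ∈ N2 A ∨ ∃ k ∈ A.C, A.n1⁻¹ * (k * g) ∈ N2 A ∨
      (k * (g * A.τ * g⁻¹) * k⁻¹ = A.ι (x8 T 1) ∧ (ww3 A)⁻¹ * (k * g) ∈ N2 A) := by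
  have h2 : g * A.τ * g⁻¹ * (g * A.τ * g⁻¹) = 1 := by
    rw [conj_mul, CS.τ, ← map_mul, x4_sq, map_one, mul_one, mul_inv_cancel]
  obtain ⟨k, hk, e⟩ := L.ty.cls _ (C_of_inv L h2 h) h2
  have e0 : k * (g * A.τ * g⁻¹) * k⁻¹ = k * g * A.τ * (k * g)⁻¹ := by group
  rcases e with ⟨a, e⟩ | e | e | e | ⟨v, e⟩
  · have := nz L (g := k * g) (by rw [← e0, e]; exact ⟨_, x4_mem _, rfl⟩)
    exact Or.inl ((mul_mem_cancel_left (C_N2 L hk)).1 this)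
  · exact Or.inr ⟨k, hk, Or.inl (N2_of_eq L (by rw [← e0, e, CS.τ, n1_x4]))⟩
  · exact absurd (isConj_iff.2 ⟨_, e0.symm.trans e⟩) L.fu.n5
  · exact absurd (isConj_iff.2 ⟨_, e0.symm.trans e⟩) L.fu.n7
  · by_cases hv : v = 0
    · rw [hv, show x4 T 0 = 1 from rfl, one_mul] at e
      exact Or.inr ⟨k, hk, Or.inr ⟨e, N2_of_eq L (by rw [← e0, e, CS.τ, w_x4])⟩⟩
    · exact absurd ((isConj_iff.2 ⟨_, e0.symm.trans e⟩).trans (x48 L hv)) L.fu.n5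

theorem two_classes {c : G} (h1 : c ≠ 1) (h2 : c * c = 1) :
    IsConj A.τ c ∨ IsConj (A.ι (x5 T 1)) c := by
  have : Fact (Nat.Prime 2) := ⟨Nat.prime_two⟩
  obtain ⟨g, hg⟩ := L.bh.syl (zpowers c) (IsPGroup.of_card (n := 1) (by
    rw [Nat.card_zpowers, orderOf_eq_prime (by rw [pow_two, h2]) h1, pow_one]))
  obtain ⟨x, e0⟩ := hg c (mem_zpowers c)
  obtain ⟨k, -, e⟩ := L.ty.cls _ (A.ι_mem x) (by rw [e0, conj_mul, h2, mul_one, mul_inv_cancel])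
  have e1 : IsConj (k * A.ι x * k⁻¹) c :=
    (isConj_iff.2 ⟨k * g, by rw [e0]; group⟩ : IsConj c _).symm
  rcases e with ⟨a, e⟩ | e | e | e | ⟨v, e⟩ <;> rw [e] at e1
  · obtain ⟨p, e2⟩ := exists_h A (t := a) (fun e => h1 (by
      rw [e, show x4 T 0 = 1 from rfl, map_one] at e1; exact isConj_one_right.1 e1))
    exact Or.inl ((isConj_iff.2 ⟨_, e2⟩).trans e1)
  · exact Or.inl ((isConj_iff.2 ⟨_, n1_x4 A 1⟩).trans e1)
  · exact Or.inr e1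
  · refine Or.inr (IsConj.trans (isConj_iff.2 ⟨A.n1 * A.n8, ?_⟩) e1)
    rw [← cj1 A (c := x3 T 1) (d := x7 T 1) (by simp [mem_sQ1, x3])
      (by ext <;> simp [Co.nu1, x3, x7]), ← cj8 A (c := x5 T 1) (d := x3 T 1) (by simp [mem_sQ, x5])
      (by ext <;> simp [Co.nu8, x3, x5])]
    group
  · by_cases hv : v = 0
    · rw [hv, show x4 T 0 = 1 from rfl, one_mul] at e1
      exact Or.inl ((isConj_iff.2 ⟨_, w_x4 A 1⟩).trans e1)
    · exact Or.inr ((x48 L hv).symm.trans e1)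

/-- `n₈ u n₈` lies in the big cell -/
theorem big {u : Co T} (hu : u ∈ sU8 T) (h : A.n8 * A.ι u * A.n8 ∈ N1 A) : u = 1 := by
  by_contra h1
  obtain ⟨u', -, u'', -, p, e⟩ := A.rank8 u hu h1
  rw [e, mul_mem_cancel_right (S_N1 L _),
    mul_mem_cancel_left (mul_mem (S_N1 L _) (h0_N1 L _))] at h
  exact n8_N1 A h

theorem N1_of_x8 {k : G} (hk : k ∈ A.C) (h : k * A.ι (x8 T 1) * k⁻¹ ∈ N1 A) : k ∈ N1 A := by
  rcases (L.bc.bruhat k).1 hk with ⟨c, p, rfl⟩ | ⟨c, p, u, hu, rfl⟩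
  · exact mul_mem (S_N1 L c) (h0_N1 L p)
  · have k1 := mul_mem (S_N1 L c) (h0_N1 L p)
    have e : u * x8 T 1 * u⁻¹ = x8 T 1 := by
      have hu' := (mem_sU8 T).1 hu
      rw [mul_inv_eq_iff_eq_mul]
      ext <;> simp [x8, hu'] <;> grind
    have k2 := mul_mem (mul_mem (inv_mem k1) h) k1
    rw [show (A.ι c * A.h0 p)⁻¹ * (A.ι c * A.h0 p * A.n8 * A.ι u * A.ι (x8 T 1) *
        (A.ι c * A.h0 p * A.n8 * A.ι u)⁻¹) * (A.ι c * A.h0 p) =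
        A.n8 * (A.ι u * A.ι (x8 T 1) * (A.ι u)⁻¹) * A.n8⁻¹ by group, ← map_inv, ← map_mul,
      ← map_mul, e, n8_inv] at k2
    exact absurd (congrArg Co.a8 (big L (by simp [mem_sU8, x8]) k2)) (by simp [x8])

end L

/-- collinear or equal -/
def Y (A : AD T G) (g : G) : Prop := ∃ a ∈ N2 A, ∃ b ∈ N1 A, ∃ c ∈ N2 A, g = a * b * c

theorem Y.of1 {g : G} (h : g ∈ N1 A) : Y A g := ⟨1, one_mem _, g, h, 1, one_mem _, by simp⟩
theorem Y.left {g a : G} (ha : a ∈ N2 A) (h : Y A g) : Y A (a * g) := by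
  obtain ⟨x, hx, b, hb, c, hc, rfl⟩ := h
  exact ⟨_, mul_mem ha hx, b, hb, c, hc, by group⟩
theorem Y.right {g a : G} (h : Y A g) (ha : a ∈ N2 A) : Y A (g * a) := by
  obtain ⟨x, hx, b, hb, c, hc, rfl⟩ := h
  exact ⟨x, hx, b, hb, _, mul_mem hc ha, by group⟩
theorem Y.of2 {g : G} (h : g ∈ N2 A) : Y A g := by simpa using (Y.of1 (one_mem _)).right h
theorem Y.inv {g : G} (h : Y A g) : Y A g⁻¹ := by
  obtain ⟨x, hx, b, hb, c, hc, rfl⟩ := h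
  exact ⟨_, inv_mem hc, _, inv_mem hb, _, inv_mem hx, by group⟩

theorem comm_Y (L : Loc A.toCS) {g : G} (h : g * A.τ * g⁻¹ * A.τ = A.τ * (g * A.τ * g⁻¹)) :
    ∃ a b, Y A a ∧ Y A b ∧ g = a * b := by
  rcases pt_cases L h with k | ⟨k, hk, e | ⟨-, e⟩⟩
  · exact ⟨g, 1, Y.of2 k, Y.of1 (one_mem _), (mul_one g).symm⟩
  · exact ⟨k⁻¹ * A.n1, _, (Y.of1 (n1_N1 A)).left (inv_mem (C_N2 L hk)), Y.of2 e, by group⟩
  · exact ⟨k⁻¹ * A.n1, A.n8 * A.n1 * ((ww3 A)⁻¹ * (k * g)),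
      (Y.of1 (n1_N1 A)).left (inv_mem (C_N2 L hk)),
      ((Y.of1 (n1_N1 A)).left (C_N2 L A.n8_mem)).right e, by rw [ww3]; group⟩

theorem fix_W (A : AD T G) {c : G} (h2 : c * c = 1) (hc : c ∈ N1 A) :
    ∃ n ∈ N1 A, c * (n * A.τ * n⁻¹) = n * A.τ * n⁻¹ * c := by
  by_cases h : c * A.τ = A.τ * c
  · exact ⟨1, one_mem _, by simpa using h⟩
  have t1 : A.τ ∈ A.im (sW T) := ⟨_, sZ_le_sW (x4_mem 1), rfl⟩
  have t2 := (mem_normalizer_iff.1 hc _).1 t1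
  have t3 : A.τ * A.τ = 1 := by rw [CS.τ, ← map_mul, x4_sq, map_one]
  have t4 : A.τ * (c * A.τ * c⁻¹) = c * A.τ * c⁻¹ * A.τ := by
    obtain ⟨x, hx, e⟩ := t2
    rw [← e, eq_ww hx, CS.τ, ← map_mul, ← map_mul]
    congr 1
    ext <;> simp [x4, ww] <;> grind
  obtain ⟨n, hn, e⟩ := W_pt A (mul_mem t1 t2) (fun e => h (by
    rw [← mul_inv_eq_iff_eq_mul, eq_inv_of_mul_eq_one_right e, inv_eq_of_mul_eq_one_right t3]))
  refine ⟨n, hn, ?_⟩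
  rw [e]
  calc c * (A.τ * (c * A.τ * c⁻¹)) = c * A.τ * c⁻¹ * ((c * c) * A.τ * (c * c)⁻¹) * c := by group
    _ = _ := by rw [h2, t4]; group

/-- a point that fixes the line -/
theorem near (L : Loc A.toCS) {g : G} (h : g * A.τ * g⁻¹ ∈ N1 A) :
    ∃ n ∈ N1 A, ∃ y, Y A y ∧ g = n * y := by
  obtain ⟨n, hn, e⟩ := fix_W A (by
    rw [conj_mul, CS.τ, ← map_mul, x4_sq, map_one, mul_one, mul_inv_cancel]) h
  have e1 : n⁻¹ * g * A.τ * (n⁻¹ * g)⁻¹ * A.τ = A.τ * (n⁻¹ * g * A.τ * (n⁻¹ * g)⁻¹) := by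
    calc _ = n⁻¹ * (g * A.τ * g⁻¹ * (n * A.τ * n⁻¹)) * n := by group
      _ = _ := by rw [e]; group
  rcases pt_cases L e1 with k | ⟨k, hk, e | ⟨e2, e⟩⟩
  · exact ⟨n, hn, _, Y.of2 k, by group⟩
  · exact ⟨n, hn, _, ((Y.of1 (n1_N1 A)).left (inv_mem (C_N2 L hk))).right e, by group⟩
  · have k1 : k⁻¹ ∈ N1 A := N1_of_x8 L (inv_mem hk) (by
      rw [← e2, show k⁻¹ * (k * (n⁻¹ * g * A.τ * (n⁻¹ * g)⁻¹) * k⁻¹) * k⁻¹⁻¹ =
        n⁻¹ * (g * A.τ * g⁻¹) * n by group]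
      exact mul_mem (mul_mem (inv_mem hn) h) hn)
    exact ⟨_, mul_mem (mul_mem hn k1) (n1_N1 A), _,
      ((Y.of1 (n1_N1 A)).left (C_N2 L A.n8_mem)).right e, by rw [ww3]; group⟩

theorem cover (L : Loc A.toCS) (hE : CE A.toCS) (g : G) :
    ∃ n ∈ N1 A, ∃ a b c, Y A a ∧ Y A b ∧ Y A c ∧ g = n * a * b * c := by
  obtain ⟨c, c1, c2, ca, ct⟩ := mid (s := g * A.τ * g⁻¹) (t := A.ι (x5 T 1))
    (by rw [conj_mul, CS.τ, ← map_mul, x4_sq, map_one, mul_one, mul_inv_cancel])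
    (by rw [← map_mul, ← map_one A.ι]; congr 1; ext <;> simp [x5] <;> grind)
    (fun k => L.fu.n5 ((isConj_iff.2 ⟨g, rfl⟩).trans k))
  have cN := hE c ct
  rcases two_classes L c1 c2 with k0 | k0 <;> obtain ⟨k, rfl⟩ := isConj_iff.1 k0
  · obtain ⟨n, hn, y, hy, rfl⟩ := near L cN
    obtain ⟨a, b, ha, hb, e⟩ := comm_Y L (g := (n * y)⁻¹ * g) (by
      calc _ = (n * y)⁻¹ * (g * A.τ * g⁻¹ * (n * y * A.τ * (n * y)⁻¹)) * (n * y) := by group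
        _ = _ := by rw [← ca]; group)
    exact ⟨n, hn, y, a, b, hy, ha, hb, by rw [mul_assoc, ← e]; group⟩
  · have key : ∀ x, k * A.ι (x5 T 1) * k⁻¹ * (x * A.τ * x⁻¹) =
        x * A.τ * x⁻¹ * (k * A.ι (x5 T 1) * k⁻¹) →
        ∃ n ∈ N1 A, ∃ y, Y A y ∧ k⁻¹ * x = n * y := fun x e => near L (hE _ (by
      calc _ = k⁻¹ * (x * A.τ * x⁻¹ * (k * A.ι (x5 T 1) * k⁻¹)) * k := by group
        _ = _ := by rw [← e]; group))
    obtain ⟨n, hn, e⟩ := fix_W A c2 cN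
    obtain ⟨n1, h1, y1, k1, e1⟩ := key n e
    obtain ⟨n2, h2, y2, k2, e2⟩ := key g ca
    refine ⟨n, hn, y1⁻¹, n1⁻¹ * n2, y2, k1.inv, Y.of1 (mul_mem (inv_mem h1) h2), k2, ?_⟩
    calc g = n * (k⁻¹ * n)⁻¹ * (k⁻¹ * g) := by group
      _ = _ := by rw [e1, e2]; group

/-- representatives of the points of the line -/
def r1 (A : AD T G) : Option K → G
  | none => 1
  | some c => A.ι (x1 T c) * A.n1

/-- representatives of the lines through the point -/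
def r2 (A : AD T G) : Option (K × K) → G
  | none => 1
  | some p => A.ι (uu T p.1 p.2) * A.n8

/-- representatives of the neighbours -/
def r3 (A : AD T G) : Option (Option (K × K) × K) → G
  | none => 1
  | some p => r2 A p.1 * r1 A (some p.2)

theorem rep1 (L : Loc A.toCS) {n : G} (hn : n ∈ N1 A) : ∃ i, (r1 A i)⁻¹ * n ∈ N2 A := by
  obtain ⟨x, hx, e⟩ := (mem_normalizer_iff.1 hn _).1 ⟨_, sZ_le_sW (x4_mem (T := T) 1), rfl⟩
  rw [eq_ww hx] at e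
  by_cases ha : x.a6 = 0
  · exact ⟨none, by simpa [r1] using nz L (by rw [CS.τ, ← e, ha]; exact ⟨_, x4_mem _, rfl⟩)⟩
  · refine ⟨some (x.a4 / x.a6), nz L ⟨_, x4_mem x.a6, ?_⟩⟩
    have e1 : r1 A (some (x.a4 / x.a6)) * A.ι (x4 T x.a6) * (r1 A (some (x.a4 / x.a6)))⁻¹ =
        n * A.τ * n⁻¹ := by
      calc _ = A.ι (x1 T (x.a4 / x.a6)) * (A.n1 * A.ι (x4 T x.a6) * A.n1⁻¹) *
            (A.ι (x1 T (x.a4 / x.a6)))⁻¹ := by rw [r1]; group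
        _ = _ := by
          rw [n1_x4, ← map_inv, ← map_mul, ← map_mul, x6_eq_ww, x1_ww, zero_add,
            div_mul_cancel₀ _ ha, e, CS.τ]
    calc _ = (r1 A (some (x.a4 / x.a6)))⁻¹ * (n * A.τ * n⁻¹) * r1 A (some (x.a4 / x.a6)) := by
          rw [← e1]; group
      _ = _ := by group

theorem eq_uu {u : Co T} (h : u ∈ sU8 T) : u = uu T u.b8 u.a8 := by
  rw [mem_sU8] at h; ext <;> simp [uu, h]

theorem rep2 (L : Loc A.toCS) {n : G} (hn : n ∈ N2 A) : ∃ i, (r2 A i)⁻¹ * n ∈ N1 A := by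
  obtain ⟨c, hc, k⟩ := L.bh.frat n (L.bh.nZ.le hn)
  have k1 : c * n ∈ N1 A := L.bh.nS _ (by simp) k
  rcases (L.bc.bruhat c).1 hc with ⟨s, p, rfl⟩ | ⟨s, p, u, hu, rfl⟩
  · exact ⟨none, by simpa [r2] using (mul_mem_cancel_left (mul_mem (S_N1 L s) (h0_N1 L p))).1 k1⟩
  · refine ⟨some (u⁻¹.b8, u⁻¹.a8), ?_⟩
    rw [r2, ← eq_uu (inv_mem hu), map_inv, mul_inv_rev, inv_inv, n8_inv]
    rw [mul_assoc, mul_assoc, mul_mem_cancel_left (mul_mem (S_N1 L s) (h0_N1 L p))] at k1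
    rwa [mul_assoc]

theorem rep3 (L : Loc A.toCS) {y : G} (hy : Y A y) : ∃ i, (r3 A i)⁻¹ * y ∈ N2 A := by
  obtain ⟨a, ha, b, hb, c, hc, rfl⟩ := hy
  obtain ⟨i, hi⟩ := rep2 L ha
  obtain ⟨j, hj⟩ := rep1 L (mul_mem hi hb)
  have h2 : r2 A i ∈ N2 A := by
    rcases i with _ | p
    exacts [one_mem _, C_N2 L (mul_mem (A.ι_mem _) A.n8_mem)]
  rcases j with _ | j
  · refine ⟨none, ?_⟩
    have := mul_mem (mul_mem h2 hj) hc
    simpa [r1, r3, mul_assoc] using this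
  · exact ⟨some (i, j), by simpa [r3, mul_assoc] using mul_mem hj hc⟩

theorem jobCov : JobCov.{u, v} := by
  intro K _ _ _ T G _ _ A L hE
  constructor
  · let f : Option K × Option (Option (K × K) × K) × Option (Option (K × K) × K) ×
        Option (Option (K × K) × K) → G ⧸ N2 A := fun p =>
      (r1 A p.1 * r3 A p.2.1 * r3 A p.2.2.1 * r3 A p.2.2.2 : G)
    have hf : Function.Surjective f := fun x => by
      obtain ⟨g, rfl⟩ := QuotientGroup.mk_surjective x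
      obtain ⟨n, hn, a, b, c, ha, hb, hc, rfl⟩ := cover L hE g
      obtain ⟨i0, k0⟩ := rep1 L hn
      obtain ⟨i1, k1⟩ := rep3 L (ha.left k0)
      obtain ⟨i2, k2⟩ := rep3 L (hb.left k1)
      obtain ⟨i3, k3⟩ := rep3 L (hc.left k2)
      exact ⟨(i0, i1, i2, i3), QuotientGroup.eq.2 (by simpa [mul_assoc] using k3)⟩
    refine (Nat.card_le_card_of_surjective f hf).trans (le_of_eq ?_)
    simp only [Nat.card_prod, Finite.card_option]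
    ring
  · refine eq_top_iff.2 fun g _ => ?_
    have hY : ∀ y, Y A y → y ∈ N2 A ⊔ N1 A := by
      rintro _ ⟨a, ha, b, hb, c, hc, rfl⟩
      exact mul_mem (mul_mem_sup ha hb) (mem_sup_left hc)
    obtain ⟨n, hn, a, b, c, ha, hb, hc, rfl⟩ := cover L hE g
    exact mul_mem (mul_mem (mul_mem (mem_sup_right hn) (hY a ha)) (hY b hb)) (hY c hc)

end H49.Oc
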