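/- Pole placement for unitary groups (slot ORE4-PP). -/
import Cfsg.Agent.H68.OuSpec
import Cfsg.Agent.H59.Std

set_option autoImplicit false

namespace H49.Ou

open Polynomial Module H53 H60.Ore H68.Ou
open H59 (perp mem_perp form_smul_left form_smul_right)

universe u

variable {F : Type u} [Field F] {σ : F →+* F} {V W : Type u} [AddCommGroup V] [Module F V]
  [AddCommGroup W] [Module F W] {B : V →ₛₗ[σ] V →ₗ[F] F} {B' : W →ₛₗ[σ] W →ₗ[F] F}
  {L : Submodule F V} {χ : F[X]} {m : ℕ} {D : F}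

theorem pow_agree {x x' : End F V} {v : V} (h : ∀ u ∈ ch x v m, x' u = x u) :
    ∀ i ≤ m, (x' ^ i) v = (x ^ i) v := fun i => by
  induction i with
  | zero => exact fun _ => rfl
  | succ i ih =>
    intro hi
    rw [pow_succ', pow_succ', End.mul_apply, End.mul_apply, ih (by omega), h _ (pow_mem_ch x v hi)]

theorem ch_agree {x x' : End F V} {v : V} (h : ∀ u ∈ ch x v m, x' u = x u) :
    ch x' v m = ch x v m :=
  congrArg (fun f => Submodule.span F (Set.range f)) (funext fun i => pow_agree h i i.2.le)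

theorem aeval_agree {y z : End F V} (hz : Ex0 z L) (h : ∀ u ∈ L, y u = z u) (P : F[X]) {u : V}
    (hu : u ∈ L) : aeval y P u = aeval z P u :=
  (intertwine_aeval (f := z.restrict hz) (g := y) L.subtype (fun w => (h w w.2).symm) P
    ⟨u, hu⟩).symm.trans (coe_aeval_restrict hz P ⟨u, hu⟩)

theorem gram (hB : IsSF 1 B) (hB' : IsSF 1 B') {x : End F V} {x' : End F W} (h : Inv B x)
    (h' : Inv B' x') {v : V} {v' : W} (e : ∀ j ≤ m, B v ((x ^ j) v) = B' v' ((x' ^ j) v'))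
    {i j : ℕ} (hi : i ≤ m) (hj : j ≤ m) :
    B ((x ^ i) v) ((x ^ j) v) = B' ((x' ^ i) v') ((x' ^ j) v') := by
  wlog k : i ≤ j generalizing i j
  · rw [hB.symm, hB'.symm, this hj hi (le_of_not_ge k)]
  obtain ⟨d, rfl⟩ := Nat.exists_eq_add_of_le k
  rw [pow_add, pow_add, End.mul_apply, End.mul_apply, h.pow i, h'.pow i, e d (by omega)]

theorem noroot (hσ : Cj σ) (h : ND σ χ m D) {b : F} (hb : Mu σ b) :
    (χ * pstar σ χ).eval b ≠ 0 := fun e => by
  have k : ∀ φ : F[X], φ.Monic → Irreducible φ → φ.eval b = 0 → pstar σ φ = φ := fun φ a c d => by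
    rw [← eq_of_monic_of_associated (monic_X_sub_C b) a
      ((irreducible_X_sub_C b).associated_of_dvd c (dvd_iff_isRoot.2 d))]
    exact (sd_lin hb).sd
  rcases mul_eq_zero.1 (eval_mul.symm.trans e) with e | e
  · exact h.ne (k χ h.mon h.irr e)
  · exact h.ne ((k _ (monic_pstar h.mon.ne_zero) (irreducible_pstar hσ.inv h.mon h.irr) e).symm.trans
      (pstar_pstar hσ.inv h.mon))

theorem sd_pr (hσ : Cj σ) (h : ND σ χ m D) : SD σ (χ * pstar σ χ) ∧
    (χ * pstar σ χ).natDegree = 2 * m ∧ (χ * pstar σ χ).coeff 0 = D ∧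
    edc (χ * pstar σ χ) = pr σ χ := by
  have m' := monic_pstar (σ := σ) h.mon.ne_zero
  have i' := irreducible_pstar hσ.inv h.mon h.irr
  refine ⟨⟨h.mon.mul m', ?_, ?_⟩, ?_, ?_, (pair_eq_edc (isPP_of_irreducible h.mon h.irr)
    (isPP_of_irreducible m' i') (h.irr.coprime_iff_not_dvd.2 fun d => h.ne
      (eq_of_monic_of_associated h.mon m' (h.irr.associated_of_dvd i' d)).symm)).symm⟩
  · rw [mul_coeff_zero]
    exact mul_ne_zero h.c0 (coeff_zero_pstar_ne_zero h.c0)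
  · rw [pstar_mul, pstar_pstar hσ.inv h.mon, mul_comm]
  · rw [h.mon.natDegree_mul m', natDegree_pstar, h.deg, two_mul]
  · rw [mul_coeff_zero, coeff_zero_pstar h.mon h.c0,
      mul_inv_eq_iff_eq_mul₀ ((map_ne_zero σ).2 h.c0)]
    exact h.det

variable [FiniteDimensional F V] {g : End F V} {κ : F}

theorem det_restrict {y : End F V} (hy : Ex0 y L) (h : ND σ χ m D) (hm : finrank F L = m)
    (k : ∀ u ∈ L, aeval y χ u = 0) : LinearMap.det (y.restrict hy) = dt χ := by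
  have m0 : 0 < m := h.deg ▸ h.irr.natDegree_pos
  have : Nontrivial L := finrank_pos_iff.1 (hm ▸ m0)
  have e : aeval (y.restrict hy : End F L) χ = 0 :=
    LinearMap.ext fun u => Subtype.ext ((coe_aeval_restrict hy χ u).trans (k u u.2))
  rw [det_eq_dt, eq_of_monic_of_dvd_of_natDegree_le h.mon (LinearMap.charpoly_monic _)
    (minpoly.eq_of_irreducible_of_monic h.irr e h.mon ▸ LinearMap.minpoly_dvd_charpoly _)
    (by rw [LinearMap.charpoly_natDegree, hm, h.deg])]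

/-- The element of the parabolic subgroup. -/
theorem stepA (jPL : JobPL.{u}) (jK : JobK.{u}) (jG : JobG.{u}) (hσ : Cj σ) (hB : IsSF 1 B)
    (hg : Inv B g) (hF : Fr B g L κ) (hE : Ex1 g L) (h : ND σ χ m D) (hm : finrank F L = m) :
    ∃ (y : End F V) (v : V), Inv B y ∧ Ex0 y L ∧ (∀ u ∈ L, aeval y χ u = 0) ∧ L = ch (g * y) v m ∧
      ((g * y) ^ m) v ∉ L ∧ B v (((g * y) ^ m) v) ≠ 0 ∧
      LinearMap.det g * D * σ (B v (((g * y) ^ m) v)) =
        -(κ ^ (finrank F V - 2 * m)) * B v (((g * y) ^ m) v) := by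
  have m0 : 0 < m := h.deg ▸ h.irr.natDegree_pos
  obtain ⟨z, z0, z1, v, hv⟩ := jG F V g L χ (hg.injective hB) hE h.mon (h.deg.trans hm.symm) h.c0
  rw [hm] at hv
  obtain ⟨y, hy, yz⟩ : ∃ y : End F V, Inv B y ∧ ∀ u ∈ L, y u = z u := by
    obtain ⟨e, he, ez⟩ := (hB.isHerm hσ.ne).witt (z.domRestrict L)
      ((injective_iff_map_eq_zero _).2 fun u hu => by
        have := z1 u u.2
        rw [← divX_mul_X_add χ, map_add, map_mul, aeval_X, aeval_C, LinearMap.add_apply,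
          End.mul_apply, show z u = 0 from hu, map_zero, zero_add, algebraMap_end_apply,
          smul_eq_zero] at this
        exact Subtype.ext (this.resolve_left h.c0))
      fun a b => (hF.iso _ (z0 _ a.2) _ (z0 _ b.2)).trans (hF.iso _ a.2 _ b.2).symm
    exact ⟨e, he, fun u hu => ez ⟨u, hu⟩⟩
  obtain ⟨y', i1, i2, -⟩ := hy.exists_inv hB
  replace i1 : ∀ u, y (y' u) = u := LinearMap.congr_fun i1
  replace i2 : ∀ u, y' (y u) = u := LinearMap.congr_fun i2
  have y0 : Ex0 y L := fun u hu => by rw [yz u hu]; exact z0 u hu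
  have y1 : ∀ u ∈ L, aeval y χ u = 0 := fun u hu => (aeval_agree z0 yz χ hu).trans (z1 u hu)
  have hL : L = ch (g * y) v m :=
    hv.trans (ch_agree fun u hu => by rw [End.mul_apply, End.mul_apply, yz u (hv.ge hu)]).symm
  have sj : ∀ u ∈ L, y' u ∈ L := fun u hu => by
    obtain ⟨w, hw⟩ := LinearMap.surjective_of_injective (f := y.restrict y0)
      (fun a b k => Subtype.ext (hy.injective hB (congrArg Subtype.val k))) ⟨u, hu⟩
    rw [← show y w = u from congrArg Subtype.val hw, i2]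
    exact w.2
  have nm : ((g * y) ^ m) v ∉ L := fun k => by
    obtain ⟨w, w1, w2, -⟩ := hE
    have : L ≤ L.comap (g * y) := hL.le.trans (Submodule.span_le.2 (by
      rintro _ ⟨i, rfl⟩
      show (g * y) (((g * y) ^ (i : ℕ)) v) ∈ L
      rw [← End.mul_apply, ← pow_succ']
      rcases (Nat.succ_le_of_lt i.2).eq_or_lt with q | q
      · rwa [show (i : ℕ) + 1 = m from q]
      · exact hL.ge (pow_mem_ch _ v q)))
    have := this (sj w w1)
    rw [Submodule.mem_comap, End.mul_apply, i1] at this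
    exact w2 this
  obtain ⟨ν, n1, n2⟩ := hF.mid
  have pm := hy.perp_mapsTo hB y0
  have n0 : ν ∈ perp B L := n1.ge (Submodule.mem_sup_right (Submodule.mem_span_singleton_self ν))
  have dec : ∀ w ∈ perp B L, ∃ t : F, y w - t • ν ∈ L := fun w hw => by
    obtain ⟨u, hu, _, k, q⟩ := Submodule.mem_sup.1 (n1.le (pm w hw))
    obtain ⟨t, rfl⟩ := Submodule.mem_span_singleton.1 k
    exact ⟨t, by rwa [← q, add_sub_cancel_right]⟩
  obtain ⟨a, ha⟩ := dec ν n0
  have F2 : Fr B (g * y) L (κ * a) := by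
    refine ⟨hF.iso, y' ν, le_antisymm (fun w hw => ?_) (sup_le hF.le_perp ?_), ?_⟩
    · obtain ⟨t, ht⟩ := dec w hw
      refine Submodule.mem_sup.2 ⟨_, sj _ ht, _, Submodule.mem_span_singleton.2 ⟨t, rfl⟩, ?_⟩
      rw [map_sub, map_smul, i2, sub_add_cancel]
    · refine (Submodule.span_singleton_le_iff_mem _ _).2 fun u hu => ?_
      rw [← hy, i1]
      exact n0 _ (y0 u hu)
    · have := L.add_mem n2 (L.smul_mem κ (sj _ ha))
      rwa [map_sub, map_smul, i2, smul_sub, smul_smul, sub_add_sub_cancel, ← i1 ν, ← End.mul_apply,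
        i1] at this
  have p1 := jPL F V σ B y L a hσ hB hy ⟨hF.iso, ν, n1, ha⟩ y0
  obtain ⟨c0, p2⟩ := jK F V σ B (g * y) v m (κ * a) hσ hB (hg.mul hy) m0 (by rwa [← hL])
    (by rwa [← hL]) (by rwa [← hL])
  refine ⟨y, v, hy, y0, y1, hL, nm, c0, ?_⟩
  have d1 : dt χ = D * σ (dt χ) := by
    rw [dt, map_mul, map_pow, map_neg, map_one, mul_left_comm, ← h.det]
  have d0 : σ (dt χ) ≠ 0 := (map_ne_zero σ).2 (mul_ne_zero (by simp) h.c0)
  rw [det_restrict y0 h hm y1, hm] at p1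
  have a0 := left_ne_zero_of_mul
    (p1.symm.trans_ne (mul_ne_zero (left_ne_zero_of_mul_eq_one (hy.det_mul_det hB)) d0))
  rw [map_mul, mul_pow] at p2
  refine mul_left_cancel₀ (mul_ne_zero a0 d0) ?_
  generalize B v (((g * y) ^ m) v) = c at p2 ⊢
  linear_combination σ (dt χ) * p2 - LinearMap.det g * σ c * (p1 + a ^ (finrank F V - 2 * m) * d1)

/-- A cyclic element which agrees with `x` on `L`. -/
theorem stepB [Finite F] (jM : JobM.{u}) (hσ : Cj σ) (hB : IsSF 1 B) {x : End F V} (hx : Inv B x)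
    {v : V} (iso : ∀ u ∈ ch x v m, ∀ w ∈ ch x v m, B u w = 0) (hm : finrank F (ch x v m) = m)
    (m0 : 0 < m) (nm : (x ^ m) v ∉ ch x v m) (c0 : B v ((x ^ m) v) ≠ 0) {f : F[X]} (hf : SD σ f)
    (hd : f.natDegree = finrank F V)
    (hc : f.natDegree = 2 * m ∧ f.coeff 0 * σ (B v ((x ^ m) v)) = -B v ((x ^ m) v) ∨
      f.natDegree = 2 * m + 1 ∧ ∀ κ, κ * B v ((x ^ m) v) = f.coeff 0 * σ (B v ((x ^ m) v)) →
        f.eval κ ≠ 0) :
    ∃ x' : End F V, Inv B x' ∧ ed x' = edc f ∧ ∀ u ∈ ch x v m, x' u = x u := by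
  obtain ⟨B', hB', i', b1, b2⟩ := jM F σ f m _ hσ hf m0 c0 hc
  have f0 := hf.mon.ne_zero
  have := finite_adjoinRoot f0
  obtain ⟨e0, he0⟩ := (hB'.isHerm hσ.ne).exists_isometry (hB.isHerm hσ.ne)
    ((finrank_adjoinRoot f0).trans hd)
  have cp : ∀ i, (cyc f ^ i) 1 = AdjoinRoot.root f ^ i := fun i => by
    simpa using aeval_cyc_apply f (X ^ i) 1
  have l1 : LinearIndependent F fun i : Fin (m + 1) => e0 ((cyc f ^ (i : ℕ)) 1) := by
    have l : m + 1 ≤ (AdjoinRoot.powerBasis f0).dim := by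
      rw [AdjoinRoot.powerBasis_dim]; omega
    have := ((AdjoinRoot.powerBasis f0).basis.linearIndependent.comp _
      (Fin.castLE_injective l)).map' e0.toLinearMap e0.ker
    simpa [cp, Function.comp_def] using this
  have l2 : LinearIndependent F fun i : Fin (m + 1) => (x ^ (i : ℕ)) v :=
    linearIndependent_finSucc'.2 ⟨linearIndependent_iff_card_eq_finrank_span.2
      ((Fintype.card_fin m).trans hm.symm), nm⟩
  obtain ⟨w, hw, ew⟩ := (hB.isHerm hσ.ne).witt_family l1 l2 fun i j => (he0 _ _).trans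
    (gram hB' hB i' hx (m := m) (fun k hk => by
      rw [cp]
      rcases hk.eq_or_lt with rfl | hk
      exacts [b2, (b1 k hk).trans (iso _ (pow_mem_ch x v m0) _ (pow_mem_ch x v hk)).symm])
      (Nat.le_of_lt_succ i.2) (Nat.le_of_lt_succ j.2))
  let e := e0.trans w
  have ec : ∀ r, e.conj (cyc f) (e r) = e (cyc f r) := fun r => by simp [LinearEquiv.conj_apply]
  refine ⟨e.conj (cyc f), fun a b => ?_, ed_eq_edc f0 (Sim.symm ⟨e, fun r => (ec r).symm⟩),
    fun u hu => LinearMap.eqOn_span' ?_ hu⟩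
  · obtain ⟨a, rfl⟩ := e.surjective a
    obtain ⟨b, rfl⟩ := e.surjective b
    rw [ec, ec]
    exact ((hw _ _).trans ((he0 _ _).trans (i' a b))).trans ((hw _ _).trans (he0 a b)).symm
  · rintro _ ⟨i, rfl⟩
    have q := ec ((cyc f ^ (i : ℕ)) 1)
    rw [← End.mul_apply (cyc f), ← pow_succ',
      show e ((cyc f ^ (i : ℕ)) 1) = (x ^ (i : ℕ)) v from ew i.castSucc,
      show e ((cyc f ^ ((i : ℕ) + 1)) 1) = (x ^ ((i : ℕ) + 1)) v from ew i.succ, pow_succ'] at q
    exact q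

theorem jobPP (jPL : JobPL.{u}) (jK : JobK.{u}) (jED : JobED.{u}) (jM : JobM.{u}) (jG : JobG.{u}) :
    JobPP.{u} := by
  rintro F _ _ σ _ κ χ m D hσ ⟨V, _, _, _, B, g, L, hB, hg, rfl, hF, hE⟩ h
  rw [dg_ed, dm_ed]
  have m0 : 0 < m := h.deg ▸ h.irr.natDegree_pos
  obtain ⟨s1, s2, s3, s4⟩ := sd_pr hσ h
  have key : finrank F L = m → ∀ f, SD σ f → f.natDegree = finrank F V →
      (∀ c, c ≠ 0 → LinearMap.det g * D * σ c = -(κ ^ (finrank F V - 2 * m)) * c →
        f.natDegree = 2 * m ∧ f.coeff 0 * σ c = -c ∨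
          f.natDegree = 2 * m + 1 ∧ ∀ κ, κ * c = f.coeff 0 * σ c → f.eval κ ≠ 0) →
      ∃ y : End F V, Inv B y ∧ ed (g * y) = edc f ∧ (finrank F V = 2 * m → ed y = pr σ χ) ∧
        (finrank F V = 2 * m + 1 → ∃ a : F, ed y = {X - C a} + pr σ χ) := fun hm f hf hd hc => by
    obtain ⟨y, v, hy, y0, y1, hL, nm, c0, p⟩ := stepA jPL jK jG hσ hB hg hF hE h hm
    obtain ⟨x, hx, ex, ag⟩ := stepB jM hσ hB (hg.mul hy) (hL ▸ hF.iso) (hL ▸ hm) m0 (hL ▸ nm) c0 hf
      hd (hc _ c0 p)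
    obtain ⟨g', g1, g2, g3⟩ := hg.exists_inv hB
    have i' := (Inv.of_isAdj (g3.symm hB) g1).mul hx
    have vL : v ∈ L := hL ▸ pow_mem_ch _ v m0
    exact ⟨g' * x, i', by rw [← mul_assoc, g1, one_mul, ex],
      jED F V σ B _ χ m D v hB i' h (fun e => c0 (by simp [e]))
        ((aeval_agree y0 (fun u hu => by
          rw [End.mul_apply, ag u (hL ▸ hu), ← End.mul_apply, ← mul_assoc, g2, one_mul]) χ vL).trans
          (y1 v vL))⟩
  have hd := hF.dim hB
  refine ⟨fun d1 d2 => ?_, fun d1 k1 k2 a ha => ?_⟩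
  · obtain ⟨y, hy, e1, e2, -⟩ := key (by omega) _ s1 (s2.trans d1.symm) fun c _ p =>
      .inl ⟨s2, by simpa [s3, d1, d2] using p⟩
    exact ⟨V, _, _, _, B, g, y, hB, hg, hy, rfl, e1.trans s4, e2 d1⟩
  have s5 : ((X - C a) * (χ * pstar σ χ)).natDegree = 2 * m + 1 := by
    rw [(monic_X_sub_C a).natDegree_mul s1.mon, natDegree_X_sub_C, s2, add_comm]
  have dg : Mu σ (LinearMap.det g) := hg.det_mul_det hB
  obtain ⟨y, hy, e1, -, e2⟩ := key (by omega) _ ((sd_lin ha).mul s1) (s5.trans d1.symm) fun c c0 p =>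
    .inr ⟨s5, fun b hb => by
      rw [mul_coeff_zero, s3] at hb
      rw [d1, Nat.add_sub_cancel_left, pow_one] at p
      have q : b * LinearMap.det g = a * κ := mul_right_cancel₀ c0 (by
        simp only [coeff_sub, coeff_X_zero, coeff_C_zero] at hb
        linear_combination LinearMap.det g * hb - a * p)
      rw [eval_mul, eval_sub, eval_X, eval_C]
      refine mul_ne_zero (sub_ne_zero.2 fun e => k2 (mul_left_cancel₀ ha.ne (e ▸ q.symm)))
        (noroot hσ h ?_)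
      rw [eq_div_of_mul_eq dg.ne q]
      exact (ha.mul k1).div dg⟩
  obtain ⟨b, e2⟩ := e2 d1
  rw [edc_lin_mul (noroot hσ h ha), s4, ← Multiset.singleton_add] at e1
  have q := congrArg dm e1
  rw [dm_ed, map_mul, ← dm_ed y, e2, dm_add, dm_add, h.dm, dm_singleton, dm_singleton, dt_lin,
    dt_lin, ← mul_assoc, mul_left_inj' (left_ne_zero_of_mul (h.det ▸ h.c0))] at q
  exact ⟨V, _, _, _, B, g, y, hB, hg, hy, rfl, e1, by
    rw [e2, ← q, mul_div_cancel_left₀ _ dg.ne]⟩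

end H49.Ou
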