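/- Tower R3, job Ab: an abelian normal subgroup generates a field, or the group is imprimitive. -/
import Cfsg.Agent.H70.R3Spec

set_option autoImplicit false

namespace H49.R3Ab

open Cfsg H90 H70.R3

universe u

/-- The field of scalars (the proof is the one of `H90.TransNZ.exists_FD`). -/
theorem exists_FD {G V : Type*} [Group G] [AddCommGroup V] [DistribMulAction G V] [Finite V]
    [Nontrivial V]
    (hk : ∀ R : Subring (AddMonoid.End V), (∀ x ∈ R, ∀ y ∈ R, x * y = y * x) →
      (∀ g : G, ∀ x ∈ R, DistribMulAction.toAddMonoidEnd G V g * x *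
        DistribMulAction.toAddMonoidEnd G V g⁻¹ ∈ R) → IsField R)
    (A : Subgroup G) [hA : A.Normal] [IsMulCommutative A] :
    ∃ (E : Type) (_ : Field E) (_ : Fintype E) (_ : Module E V), Nonempty (FD V A E) := by
  have : Finite (AddMonoid.End V) := Finite.of_injective _ DFunLike.coe_injective
  let T := DistribMulAction.toAddMonoidEnd G V
  let R := Subring.closure (T '' A)
  have hc : ∀ x ∈ R, ∀ y ∈ R, x * y = y * x := by
    have h1 : T '' A ⊆ Subring.centralizer (T '' A) := by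
      rintro _ ⟨a, ha, rfl⟩ _ ⟨b, hb, rfl⟩
      rw [← map_mul, ← map_mul, setLike_mul_comm hb ha]
    have h2 : T '' A ⊆ Subring.centralizer (R : Set (AddMonoid.End V)) := fun x hx y hy =>
      (Subring.closure_le.2 h1 hy x hx).symm
    exact fun x hx y hy => Subring.closure_le.2 h2 hy x hx
  let cj : G → AddMonoid.End V →+* AddMonoid.End V := fun g =>
    { toFun := fun x => T g * x * T g⁻¹
      map_one' := by rw [mul_one, ← map_mul, mul_inv_cancel, map_one]
      map_mul' := fun x y => by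
        have : T g⁻¹ * T g = 1 := by rw [← map_mul, inv_mul_cancel, map_one]
        calc T g * (x * y) * T g⁻¹ = T g * x * (T g⁻¹ * T g) * y * T g⁻¹ := by
              rw [this]; simp only [mul_assoc, one_mul]
          _ = _ := by simp only [mul_assoc]
      map_zero' := by simp
      map_add' := fun x y => by rw [mul_add, add_mul] }
  have hn : ∀ g : G, ∀ x ∈ R, T g * x * T g⁻¹ ∈ R := fun g =>
    (Subring.closure_le (t := R.comap (cj g))).2 (by
      rintro _ ⟨a, ha, rfl⟩
      refine Subring.subset_closure ⟨g * a * g⁻¹, hA.conj_mem a ha g, ?_⟩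
      rw [map_mul, map_mul]; rfl)
  have hF := hk R hc hn
  obtain ⟨E, _, _, e, he⟩ := H96.exists_field_of_subring R hF
  obtain ⟨u, hu⟩ := exists_ne (0 : V)
  have : Nontrivial (AddMonoid.End V) := ⟨⟨1, 0, fun h => hu (DFunLike.congr_fun h u)⟩⟩
  have hinj : Function.Injective e := e.injective
  let _ : Module E V := Module.compHom V e
  have hsm : ∀ (c : E) (v : V), c • v = e c v := fun _ _ => rfl
  choose i hi using fun a : A => (he (T a)).1 (Subring.subset_closure ⟨a, a.2, rfl⟩)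
  choose s hs using fun (g : G) (c : E) => (he _).1 (hn g (e c) ((he _).2 ⟨c, rfl⟩))
  let s' : G → E →+* E := fun g =>
    { toFun := s g
      map_one' := hinj (by rw [hs, map_one]; exact map_one (cj g))
      map_mul' := fun x y => hinj (by rw [map_mul, hs, hs, hs, map_mul]; exact map_mul (cj g) _ _)
      map_zero' := hinj (by rw [hs, map_zero]; exact map_zero (cj g))
      map_add' := fun x y => hinj (by
        rw [map_add, hs, hs, hs, map_add]; exact map_add (cj g) _ _) }
  let ι₀ : A →* E := MonoidHom.mk ⟨i, hinj (by rw [hi, map_one]; exact map_one T)⟩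
    fun a b => hinj (by
      change e (i _) = e (i a * i b)
      rw [map_mul, hi, hi, hi]; exact map_mul T _ _)
  refine ⟨E, inferInstance, inferInstance, inferInstance, ⟨⟨ι₀.toHomUnits,
    MonoidHom.mk' (fun g => RingEquiv.ofBijective (s' g)
      (Finite.injective_iff_bijective.1 (s' g).injective)) fun g k => ?_, fun a v => ?_,
      fun g c v => ?_, ?_⟩⟩⟩
  · refine RingEquiv.ext fun c => hinj ?_
    change e (s _ c) = e (s g (s k c))
    rw [hs, hs, hs, mul_inv_rev, map_mul, map_mul]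
    simp only [mul_assoc]
  · change _ = e (i a) v
    rw [hi]; rfl
  · change _ = e (s g c) _
    rw [hs]
    change _ = g • e c (g⁻¹ • g • v)
    rw [inv_smul_smul]; rfl
  · rw [eq_top_iff]
    rintro c -
    have h1 : R ≤ (Subring.closure (Set.range fun a => ((ι₀.toHomUnits a : Eˣ) : E))).map e :=
      Subring.closure_le.2 (by
        rintro _ ⟨a, ha, rfl⟩
        exact ⟨i ⟨a, ha⟩, Subring.subset_closure ⟨⟨a, ha⟩, rfl⟩, hi _⟩)
    obtain ⟨d, hd, hdc⟩ := h1 ((he _).2 ⟨c, rfl⟩)
    exact hinj hdc ▸ hd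

section Key

variable {G V : Type u} [Group G] [AddCommGroup V] [DistribMulAction G V]
  (R : Subring (AddMonoid.End V))

/-- The annihilator of a vector. -/
def ann (v : V) : Set (AddMonoid.End V) := {x | x ∈ R ∧ x v = 0}

/-- The vectors killed by the annihilator of `v`. -/
def W (v : V) : AddSubgroup V where
  carrier := {u | ann R v ⊆ ann R u}
  zero_mem' := fun x hx => ⟨hx.1, map_zero x⟩
  add_mem' := fun {a b} ha hb x hx => ⟨hx.1, by rw [map_add, (ha hx).2, (hb hx).2, add_zero]⟩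
  neg_mem' := fun {a} ha x hx => ⟨hx.1, by rw [map_neg, (ha hx).2, neg_zero]⟩

/-- Non-zero vectors with an annihilator of largest order. -/
def Good (v : V) : Prop := v ≠ 0 ∧ ∀ w : V, w ≠ 0 → (ann R w).ncard ≤ (ann R v).ncard

variable {R}

theorem mem_W {v u : V} : u ∈ W R v ↔ ann R v ⊆ ann R u := Iff.rfl

theorem Good.eq [Finite V] {v u : V} (h : Good R v) (hu : u ≠ 0) (hle : ann R v ⊆ ann R u) :
    ann R v = ann R u :=
  have : Finite (AddMonoid.End V) := Finite.of_injective _ DFunLike.coe_injective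
  Set.eq_of_subset_of_ncard_le hle (h.2 u hu)

theorem Good.exists_mem [Finite V] {v u : V} (h : Good R v) (hu : u ≠ 0)
    (hne : ann R v ≠ ann R u) : ∃ y ∈ R, y v = 0 ∧ y u ≠ 0 := by
  obtain ⟨y, h1, h2⟩ := Set.not_subset.1 fun hle => hne (h.eq hu hle)
  exact ⟨y, h1.1, h1.2, fun e => h2 ⟨h1.1, e⟩⟩

variable (hc : ∀ x ∈ R, ∀ y ∈ R, x * y = y * x)
include hc

theorem comm {x y : AddMonoid.End V} (hx : x ∈ R) (hy : y ∈ R) (v : V) : x (y v) = y (x v) :=
  DFunLike.congr_fun (hc x hx y hy) v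

theorem Good.prime [Finite V] {u : V} (h : Good R u) {x y : AddMonoid.End V} (hx : x ∈ R)
    (hy : y ∈ R) (hyu : y u ≠ 0) (e : y (x u) = 0) : x u = 0 := by
  by_contra hxu
  have := h.eq hxu fun z hz => ⟨hz.1, by rw [comm hc hz.1 hx, hz.2, map_zero]⟩
  exact hyu (this.ge (show y ∈ ann R (x u) from ⟨hy, e⟩)).2

theorem Good.step [Finite V] {u t : V} (h : Good R u) {y : AddMonoid.End V} (hy : y ∈ R)
    (hyt : y t = 0) (hyu : y u ≠ 0) : t + u ≠ 0 ∧ (ann R (t + u)).ncard < (ann R t).ncard := by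
  have : Finite (AddMonoid.End V) := Finite.of_injective _ DFunLike.coe_injective
  have h1 : y (t + u) ≠ 0 := by rwa [map_add, hyt, zero_add]
  refine ⟨fun e => h1 (by rw [e, map_zero]), Set.ncard_lt_ncard ⟨fun x hx => ⟨hx.1, ?_⟩, fun hle =>
    h1 (hle (show y ∈ ann R t from ⟨hy, hyt⟩)).2⟩⟩
  have h2 : x t + x u = 0 := by rw [← map_add]; exact hx.2
  have h3 : x u = 0 := h.prime hc hx.1 hy hyu (by
    have := congrArg y h2
    rwa [map_add, comm hc hy hx.1 t, hyt, map_zero, zero_add, map_zero] at this)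
  rwa [h3, add_zero] at h2

omit hc

variable (hn : ∀ g : G, ∀ x ∈ R, DistribMulAction.toAddMonoidEnd G V g * x *
  DistribMulAction.toAddMonoidEnd G V g⁻¹ ∈ R)
include hn

theorem tr (g : G) {v u : V} (h : ann R v ⊆ ann R u) : ann R (g • v) ⊆ ann R (g • u) := by
  intro x hx
  have h1 : g⁻¹ • x (g⁻¹⁻¹ • u) = 0 := (h (show _ ∈ ann R v from ⟨hn g⁻¹ x hx.1, by
    change g⁻¹ • x (g⁻¹⁻¹ • v) = 0
    rw [inv_inv, hx.2, smul_zero]⟩)).2
  rw [inv_inv, smul_eq_zero_iff_eq] at h1
  exact ⟨hx.1, h1⟩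

theorem card_le [Finite V] (g : G) (v : V) : (ann R v).ncard ≤ (ann R (g • v)).ncard := by
  have : Finite (AddMonoid.End V) := Finite.of_injective _ DFunLike.coe_injective
  refine Set.ncard_le_ncard_of_injOn (fun x => DistribMulAction.toAddMonoidEnd G V g * x *
    DistribMulAction.toAddMonoidEnd G V g⁻¹) (fun x hx => ⟨hn g x hx.1, ?_⟩) (fun x _ y _ hxy => ?_)
  · change g • x (g⁻¹ • g • v) = 0
    rw [inv_smul_smul, hx.2, smul_zero]
  · refine AddMonoidHom.ext fun u => ?_
    have := DFunLike.congr_fun hxy (g • u)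
    change g • x (g⁻¹ • g • u) = g • y (g⁻¹ • g • u) at this
    rw [inv_smul_smul] at this
    exact MulAction.injective g this

theorem card_eq [Finite V] (g : G) (v : V) : (ann R (g • v)).ncard = (ann R v).ncard :=
  le_antisymm (by simpa using card_le hn g⁻¹ (g • v)) (card_le hn g v)

theorem Good.smul [Finite V] {v : V} (h : Good R v) (g : G) : Good R (g • v) :=
  ⟨(smul_ne_zero_iff_ne g).2 h.1, fun w hw => (card_eq hn g v).symm ▸ h.2 w hw⟩

include hc

theorem key [Finite V] {v₁ v₂ : V} (ne : v₁ ≠ 0)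
    (cover : ∀ v : V, v ≠ 0 → (∃ g : G, g • v₁ = v) ∨ ∃ g : G, g • v₂ = v)
    (irr : ∀ W : AddSubgroup V, (∀ g : G, ∀ v ∈ W, g • v ∈ W) → W = ⊥ ∨ W = ⊤) :
    IsField R ∨ Imprim G V := by
  have : Finite (AddMonoid.End V) := Finite.of_injective _ DFunLike.coe_injective
  obtain ⟨v, hv0, hv1⟩ := Set.exists_max_image {v : V | v ≠ 0} (fun v => (ann R v).ncard)
    (Set.toFinite _) ⟨v₁, ne⟩
  have hv : Good R v := ⟨hv0, hv1⟩
  have W0 : ∀ u : V, u ≠ 0 → W R u ≠ ⊥ := fun u hu e =>
    hu (AddSubgroup.mem_bot.1 (e ▸ (mem_W.2 subset_rfl : u ∈ W R u)))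
  have sm : ∀ (g : G) (a b : V), ann R (g • a) = ann R b → ∀ u ∈ W R a, g • u ∈ W R b :=
    fun g a b e u hu => mem_W.2 (e ▸ tr hn g hu)
  by_cases h1 : ∀ w, Good R w → ann R w = ann R v
  · left
    have h2 : W R v = ⊤ := (irr _ fun g => sm g v v (h1 _ (hv.smul hn g))).resolve_left (W0 v hv.1)
    have h3 : ∀ x ∈ R, x v = 0 → x = 0 := fun x hx e => AddMonoidHom.ext fun w =>
      (mem_W.1 (h2.ge (AddSubgroup.mem_top w)) (show x ∈ ann R v from ⟨hx, e⟩)).2
    let _ : CommRing R := { (inferInstance : Ring R) with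
      mul_comm := fun x y => Subtype.ext (hc _ x.2 _ y.2) }
    have : Nontrivial R := ⟨⟨1, 0, fun h => hv.1 (DFunLike.congr_fun (congrArg Subtype.val h) v)⟩⟩
    have : NoZeroDivisors R := ⟨fun {a b} hab => by
      by_cases ha : (a : AddMonoid.End V) v = 0
      · exact Or.inl (Subtype.ext (h3 a a.2 ha))
      · exact Or.inr (Subtype.ext (h3 b b.2
          (hv.prime hc b.2 a.2 ha (DFunLike.congr_fun (congrArg Subtype.val hab) v))))⟩
    have : IsDomain R := NoZeroDivisors.to_isDomain _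
    exact Finite.isDomain_to_isField R
  right
  push Not at h1
  obtain ⟨w, hw, hne⟩ := h1
  have two : ∀ u, Good R u → ann R u = ann R v ∨ ann R u = ann R w := by
    intro u hu
    by_contra hh
    push Not at hh
    obtain ⟨y, y1, y2, y3⟩ := hv.exists_mem hw.1 hne.symm
    obtain ⟨a, a1, a2, a3⟩ := hv.exists_mem hu.1 hh.1.symm
    obtain ⟨b, b1, b2, b3⟩ := hw.exists_mem hu.1 hh.2.symm
    obtain ⟨n1, l1⟩ := hw.step hc y1 y2 y3
    obtain ⟨n2, l2⟩ := hu.step hc (t := v + w) (R.mul_mem a1 b1) (by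
      change a (b (v + w)) = 0
      rw [map_add, b2, add_zero, comm hc a1 b1, a2, map_zero]) fun e => b3 (hu.prime hc b1 a1 a3 e)
    have cv : ∀ t : V, t ≠ 0 →
        (ann R t).ncard = (ann R v₁).ncard ∨ (ann R t).ncard = (ann R v₂).ncard := fun t ht => by
      rcases cover t ht with ⟨g, rfl⟩ | ⟨g, rfl⟩
      exacts [Or.inl (card_eq hn g _), Or.inr (card_eq hn g _)]
    have c1 := cv _ hv.1
    have c2 := cv _ n1
    have c3 := cv _ n2
    omega
  have sw : ∀ g : G, ((∀ u ∈ W R v, g • u ∈ W R v) ∧ ∀ u ∈ W R w, g • u ∈ W R w) ∨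
      ((∀ u ∈ W R v, g • u ∈ W R w) ∧ ∀ u ∈ W R w, g • u ∈ W R v) := fun g => by
    have hg : ann R (g • v) ≠ ann R (g • w) := fun e =>
      hne (hw.eq hv.1 (by simpa using tr hn g⁻¹ e.ge))
    rcases two _ (hv.smul hn g) with a | a <;> rcases two _ (hw.smul hn g) with b | b
    · exact absurd (a.trans b.symm) hg
    · exact Or.inl ⟨sm g v v a, sm g w w b⟩
    · exact Or.inr ⟨sm g v w a, sm g w v b⟩
    · exact absurd (a.trans b.symm) hg
  refine ⟨W R v, W R w, ⟨AddSubgroup.disjoint_def.2 fun {u} a b => ?_, codisjoint_iff.2 ?_⟩,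
    W0 v hv.1, W0 w hw.1, sw⟩
  · by_contra u0
    exact hne ((hw.eq u0 b).trans (hv.eq u0 a).symm)
  · refine (irr _ fun g u hu => ?_).resolve_left fun e => W0 v hv.1 (le_bot_iff.1 (e ▸ le_sup_left))
    obtain ⟨a, ha, b, hb, rfl⟩ := AddSubgroup.mem_sup.1 hu
    rw [smul_add]
    rcases sw g with h | h
    · exact AddSubgroup.add_mem_sup (h.1 a ha) (h.2 b hb)
    · rw [add_comm]
      exact AddSubgroup.add_mem_sup (h.2 b hb) (h.1 a ha)

end Key

theorem jobAb : JobAb.{u} := by
  intro G V _ _ _ _ _ _ p n v₁ v₂ h irr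
  refine or_iff_not_imp_right.2 fun hI A hA hA' => ?_
  have := h.nontrivial
  exact exists_FD (fun R hc hn => (key hc hn h.ne₁ h.cover irr).resolve_right hI) A

end H49.R3Ab
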