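import Cfsg.Agent.H30.SQSpec

/-! Tower SQ, slot S6b: the final structure. -/

set_option autoImplicit false

namespace H49.SQS6b

open Cfsg Subgroup H30.SQ

universe u

variable {G : Type u} [Group G] {T U₁ : Subgroup G} {n : ℕ} {w v c z t : G}

theorem u0w {y : G} (h : y ∈ U0 T w v) : Commute y w := (h.2 w (by simp)).symm
theorem u0v {y : G} (h : y ∈ U0 T w v) : Commute y v := (h.2 v (by simp)).symm

theorem cen_u0 (S : ST T U₁ n w v c z) {y : G} (h : Cen T y) : y ∈ U0 T w v :=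
  ⟨h.1, by rintro _ (rfl | rfl); exacts [h.2 _ S.wT, h.2 _ S.vT]⟩

theorem inv_zpow' {y : G} (h : v * y * v⁻¹ = y⁻¹) (k : ℤ) : v * y ^ k = y ^ (-k) * v := by
  rw [zpow_neg, ← inv_zpow, ← h, conj_zpow, inv_mul_cancel_right]

theorem dih {y : G} (h : v * y * v⁻¹ = y⁻¹) (v2 : v * v = 1) (k l : ℤ) :
    y ^ k * v * (y ^ l * v) = y ^ (k - l) := by
  rw [mul_assoc, ← mul_assoc v, inv_zpow' h, mul_assoc, v2, mul_one, ← zpow_add, sub_eq_add_neg]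

/-- the dihedral group on `y`, `v` -/
def MM (y v : G) (h : v * y * v⁻¹ = y⁻¹) (v2 : v * v = 1) : Subgroup G where
  carrier := {s | ∃ k : ℤ, s = y ^ k ∨ s = y ^ k * v}
  one_mem' := ⟨0, .inl (zpow_zero y).symm⟩
  mul_mem' := by
    rintro _ _ ⟨k, rfl | rfl⟩ ⟨l, rfl | rfl⟩
    · exact ⟨k + l, .inl (zpow_add y k l).symm⟩
    · exact ⟨k + l, .inr (by rw [zpow_add, mul_assoc])⟩
    · exact ⟨k + -l, .inr (by rw [mul_assoc, inv_zpow' h, zpow_add, mul_assoc])⟩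
    · exact ⟨k - l, .inl (dih h v2 k l)⟩
  inv_mem' := by
    rintro _ ⟨k, rfl | rfl⟩
    · exact ⟨-k, .inl (zpow_neg y k).symm⟩
    · exact ⟨k, .inr (inv_eq_of_mul_eq_one_right (by rw [dih h v2, sub_self, zpow_zero]))⟩

theorem ws_sq (K : KT T U₁ n w v c z) (ht : t ∈ WS T z) : t * t = 1 := by
  obtain ⟨g, rfl⟩ := isConj_iff.1 ht.2
  rw [conj_mul, K.z2, mul_one, mul_inv_cancel]

theorem ws_cj (K : KT T U₁ n w v c z) (ht : t ∈ WS T z) (hz : t ≠ z) {h : G} (hh : h ∈ T) :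
    h * t * h⁻¹ ∈ WS T z ∧ h * t * h⁻¹ ≠ z :=
  ⟨⟨mul_mem (mul_mem hh ht.1) (inv_mem hh), ht.2.trans (isConj_iff.2 ⟨h, rfl⟩)⟩, fun e => hz (by
    rw [mul_inv_eq_iff_eq_mul, ← (K.zc.2 h hh).eq] at e
    exact mul_left_cancel e)⟩

variable (S : ST T U₁ n w v c z) (K : KT T U₁ n w v c z)
  (sU : ∀ t ∈ U0 T w v, IsConj z t → t = z) (A : S6a T w v z)
include S K

theorem cjw {u : G} (hu : u ∈ U₁) (i j : ℤ) :
    w ^ j * (u * w ^ i * v) * (w ^ j)⁻¹ = c ^ (-j) * (u * w ^ i * v) := by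
  have h1 : Commute (u * w ^ i) (w ^ j) :=
    ((S.cw u hu).zpow_right j).mul_left (Commute.zpow_zpow_self w i j)
  have h2 : Commute (u * w ^ i) (c ^ (-j)) :=
    ((K.uc u hu).zpow_right _).mul_left (S.wc.zpow_zpow _ _)
  rw [← mul_assoc, ← h1.eq, mul_assoc (u * w ^ i), mul_assoc (u * w ^ i), K.wv, ← mul_assoc, h2.eq,
    mul_assoc]

include sU

theorem ncw (ht : t ∈ WS T z) (hz : t ≠ z) : ¬ Commute t w := fun h =>
  hz (sU t (K.iv t ht.1 (ws_sq K ht) h) ht.2)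

theorem form (ht : t ∈ WS T z) (hz : t ≠ z) : ∃ u ∈ U₁, ∃ i : ℕ, t = u * w ^ (i : ℤ) * v := by
  obtain ⟨u, hu, i, e | e⟩ := S.gen t ht.1
  · exact absurd (e ▸ (S.cw u hu).mul_left ((Commute.refl w).pow_left i)) (ncw S K sU ht hz)
  · exact ⟨u, hu, i, by rw [zpow_natCast, e]⟩

include A

theorem conj {t₀ u u₀ : G} (ht : t ∈ WS T z) (hz : t ≠ z) (ht₀ : t₀ ∈ WS T z) (hz₀ : t₀ ≠ z)
    (hu : u ∈ U₁) (hu₀ : u₀ ∈ U₁) {i k : ℤ} (e : t = u * w ^ (i + 2 * k) * v)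
    (e₀ : t₀ = u₀ * w ^ i * v) : ∃ j : ℤ, t = w ^ j * t₀ * (w ^ j)⁻¹ ∧ t = c ^ (-j) * t₀ := by
  suffices h : ∃ j : ℤ, t = w ^ j * t₀ * (w ^ j)⁻¹ from
    h.imp fun j h => ⟨h, by rw [h, e₀, cjw S K hu₀]⟩
  have le : ∀ {x}, x ∈ U₁ → x ∈ U0 T w v := fun h => (K.u0 _).2 (.inl h)
  have h1 : c ^ k * (u * w ^ (i + 2 * k) * v) = u * (w * w * c) ^ k * u₀⁻¹ * t₀ := by
    rw [e₀, (S.wc.mul_left S.wc).mul_zpow, ← zpow_two, ← zpow_mul, add_comm, zpow_add,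
      ← mul_assoc, ← mul_assoc, ← ((K.uc u hu).zpow_right k).eq, (S.wc.zpow_zpow _ _).eq]
    group
  obtain ⟨a1, a2⟩ := ws_cj K ht hz (zpow_mem S.wT (-k))
  have h2 : w ^ (-k) * t * (w ^ (-k))⁻¹ = u * (w * w * c) ^ k * u₀⁻¹ * t₀ := by
    rw [e, cjw S K hu, neg_neg, h1]
  have h3 : Commute t₀ (w ^ (-k) * t * (w ^ (-k))⁻¹) := by
    have m := mul_mem (mul_mem (le hu) (zpow_mem (cen_u0 S K.ze) k)) (inv_mem (le hu₀))
    rw [h2]
    exact ((A.2 t₀ ht₀ hz₀ _ m.1).2 (.inl m)).symm.mul_right (Commute.refl _)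
  rcases A.1 t₀ ht₀ hz₀ _ a1 a2 h3 with h | h
  · exact ⟨k, by rw [← h]; group⟩
  · refine ⟨k + (n / 2 : ℕ), ?_⟩
    rw [← K.nu t₀ ht₀.1 (ncw S K sU ht₀ hz₀)] at h
    rw [zpow_add, zpow_natCast, mul_inv_rev,
      show ∀ a b x : G, a * b * x * (b⁻¹ * a⁻¹) = a * (b * x * b⁻¹) * a⁻¹ from fun _ _ _ => by group,
      ← h]
    group

omit K sU A in
theorem vz (z1 : z ≠ 1) (zc : Cen T z) : v ≠ z := fun e => z1 (by
  have := S.vw
  rw [e, ← (zc.2 w S.wT).eq, mul_inv_cancel_right, left_eq_mul] at this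
  rw [S.zc, this, one_pow])

theorem main (H : Hy T n) : ∃ y ∈ T, v * y * v⁻¹ = y⁻¹ ∧
    (∀ t ∈ WS T z, t ≠ z → ∃ k : ℤ, t = y ^ k * v) ∧ ∃ v' ∈ WS T z, v' ≠ z ∧
    (∀ t ∈ WS T z, t ≠ z → ∃ j : ℤ, t = w ^ j * v * (w ^ j)⁻¹ ∨ t = w ^ j * v' * (w ^ j)⁻¹) ∧
    (v' = v ∨ ∃ M : Subgroup G, M ≤ T ∧ z ∈ M ∧ (∀ s ∈ M, s * s = 1 → s = 1 ∨ IsConj z s) ∧
      ∀ s ∈ T, ∃ u ∈ U0 T w v, s * u ∈ M) := by
  have vS : v ∈ WS T z := ⟨S.vT, S.vz⟩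
  have v0 := vz S K.z1 K.zc
  have ev : ∀ t ∈ WS T z, t ≠ z → ∀ u ∈ U₁, ∀ k : ℤ, t = u * w ^ (2 * k) * v →
      ∃ j : ℤ, t = w ^ j * v * (w ^ j)⁻¹ ∧ t = c ^ (-j) * v := fun t ht hz u hu k e =>
    conj S K sU A ht hz vS v0 hu (one_mem _) (i := 0) (k := k) (by rw [zero_add, e]) (by simp)
  by_cases hB : ∃ v' ∈ WS T z, v' ≠ z ∧ ∃ u ∈ U₁, ∃ i : ℕ, Odd i ∧ v' = u * w ^ (i : ℤ) * v
  swap
  · have a : ∀ t ∈ WS T z, t ≠ z → ∃ j : ℤ, t = w ^ j * v * (w ^ j)⁻¹ ∧ t = c ^ (-j) * v := by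
      intro t ht hz
      obtain ⟨u, hu, i, e⟩ := form S K sU ht hz
      obtain ⟨k, rfl⟩ := Nat.not_odd_iff_even.1 fun h => hB ⟨t, ht, hz, u, hu, i, h, e⟩
      exact ev t ht hz u hu k (by rw [e, two_mul, Nat.cast_add])
    exact ⟨c, K.cT, K.vc, fun t ht hz => (a t ht hz).elim fun j h => ⟨_, h.2⟩, v, vS, v0,
      fun t ht hz => (a t ht hz).imp fun j h => .inl h.1, .inl rfl⟩
  obtain ⟨v', hv, hz', u', hu', i, oi, e'⟩ := hB
  obtain ⟨m, hm⟩ := H.ev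
  obtain ⟨y, hy⟩ : ∃ y, y = u' * w ^ (i : ℤ) := ⟨_, rfl⟩
  rw [← hy] at e'
  have yT : y ∈ T := hy ▸ mul_mem (S.le hu') (zpow_mem S.wT _)
  have y1 : v * y * v⁻¹ = y⁻¹ := by
    have := ws_sq K hv
    rw [e', mul_assoc] at this
    rw [inv_eq_of_mul_eq_one_right this, inv_eq_of_mul_eq_one_right S.v2, mul_assoc]
  have y2 : y ^ (2 : ℤ) = c ^ (-(i : ℤ)) := by
    have : v * y * v⁻¹ = y * c ^ (i : ℤ) := by
      rw [hy, ← mul_assoc, ← (S.cv u' hu').eq, mul_assoc u', mul_assoc u', K.vi, mul_assoc]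
    rw [y1] at this
    rw [zpow_neg, eq_inv_iff_mul_eq_one, zpow_two, mul_assoc, ← this, mul_inv_cancel]
  have cop : ∀ r, i.Coprime (2 ^ r) := fun r => (Nat.coprime_two_right.2 oi).pow_right r
  have cy : c ∈ zpowers y := by
    have h1 : c ∈ zpowers (c ^ i) := mem_zpowers_pow_iff.2 (by rw [S.oc, hm]; exact cop _)
    refine zpowers_le.2 ?_ h1
    rw [← inv_mem_iff, ← zpow_natCast, ← zpow_neg, ← y2]
    exact zpow_mem (mem_zpowers y) 2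
  have cl : ∀ t ∈ WS T z, t ≠ z → ∃ j : ℤ, (t = w ^ j * v * (w ^ j)⁻¹ ∧ t = c ^ (-j) * v) ∨
      (t = w ^ j * v' * (w ^ j)⁻¹ ∧ t = c ^ (-j) * v') := by
    intro t ht hz
    obtain ⟨u, hu, l, e⟩ := form S K sU ht hz
    rcases Int.even_or_odd (l : ℤ) with ⟨k, hk⟩ | hl
    · exact (ev t ht hz u hu k (by rw [e, hk, two_mul])).imp fun j h => .inl h
    · obtain ⟨k, hk⟩ := hl.sub_odd (Int.odd_coe_nat i |>.2 oi)
      exact (conj S K sU A ht hz hv hz' hu hu' (i := i) (k := k) (by rw [e]; congr 3; omega)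
        (by rw [e', hy])).imp fun j h => .inr h
  refine ⟨y, yT, y1, fun t ht hz => ?_, v', hv, hz',
    fun t ht hz => (cl t ht hz).imp fun j h => h.imp And.left And.left,
    .inr ⟨MM y v y1 S.v2, ?_, ?_, ?_, fun s hs => ?_⟩⟩
  · obtain ⟨j, h | h⟩ := cl t ht hz <;> obtain ⟨k, hk⟩ := mem_zpowers_iff.1 (zpow_mem cy (-j))
    · exact ⟨k, by rw [hk, h.2]⟩
    · exact ⟨k + 1, by rw [zpow_add_one, hk, h.2, e', mul_assoc]⟩
  · rintro _ ⟨k, rfl | rfl⟩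
    exacts [zpow_mem yT k, mul_mem (zpow_mem yT k) S.vT]
  · obtain ⟨k, hk⟩ := mem_zpowers_iff.1 (pow_mem cy (n / 2))
    exact ⟨k, .inl (by rw [hk, S.zc])⟩
  · have y3 : ∀ l : ℤ, y ^ (l + l) = c ^ (-(i * l : ℤ)) := fun l => by
      rw [← two_mul, zpow_mul, y2, ← zpow_mul, neg_mul]
    rintro _ ⟨k, rfl | rfl⟩ h2
    · rcases Int.even_or_odd k with ⟨l, rfl⟩ | hk
      · refine or_iff_not_imp_left.2 fun h1 => ?_
        obtain ⟨r, hr⟩ := K.uq _ (y3 l ▸ h1)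
        rw [← y3] at hr
        rcases Nat.even_or_odd' r with ⟨q, rfl | rfl⟩
        · exact absurd (by rw [← hr, pow_mul, sq, h2, one_pow]) K.z1
        · rw [pow_succ, pow_mul, sq, h2, one_pow, one_mul] at hr
          rw [hr]
      · rw [← zpow_add, y3, ← orderOf_dvd_iff_zpow_eq_one, S.oc, hm, dvd_neg] at h2
        have : (2 : ℤ) ∣ i * k := Dvd.dvd.trans (by push_cast; exact Dvd.intro_left _ (pow_succ _ _).symm) h2
        exact absurd (even_iff_two_dvd.2 this)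
          (Int.not_even_iff_odd.2 ((Int.odd_coe_nat i |>.2 oi).mul hk))
    · right
      rcases Int.even_or_odd k with ⟨l, rfl⟩ | ⟨l, rfl⟩
      · rw [y3, ← K.wv]
        exact S.vz.trans (isConj_iff.2 ⟨_, rfl⟩)
      · rw [zpow_add_one, two_mul, y3, mul_assoc, hy, ← cjw S K hu', ← hy, ← e']
        exact hv.2.trans (isConj_iff.2 ⟨_, rfl⟩)
  · have h1 : w ∈ zpowers (w ^ i) := mem_zpowers_pow_iff.2 (Nat.Coprime.coprime_dvd_right
      (orderOf_dvd_of_pow_eq_one (H.ex w S.wT)) (by rw [hm, ← pow_succ']; exact cop _))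
    have yc : ∀ x ∈ U0 T w v, Commute x y := fun x hx => by
      have := ((A.2 v' hv hz' x hx.1).2 (.inl hx)).mul_right (u0v hx).inv_right
      rwa [e', mul_inv_cancel_right] at this
    have le : ∀ {x}, x ∈ U₁ → x ∈ U0 T w v := fun h => (K.u0 _).2 (.inl h)
    obtain ⟨u, hu, l, e⟩ := S.gen s hs
    obtain ⟨k, hk⟩ := mem_zpowers_iff.1 (pow_mem h1 l)
    have h2 : w ^ l = u'⁻¹ ^ k * y ^ k := by
      rw [← (yc _ (le (inv_mem hu'))).mul_zpow, hy, inv_mul_cancel_left, zpow_natCast, hk]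
    have m := inv_mem (le (mul_mem hu (zpow_mem (inv_mem hu') k)))
    have c1 := (yc _ m).zpow_right k
    refine ⟨_, m, k, e.imp (fun e => ?_) fun e => ?_⟩
    · rw [e, h2, ← mul_assoc, mul_assoc _ (y ^ k), ← c1.eq, mul_inv_cancel_left]
    · rw [e, h2, ← mul_assoc, mul_assoc _ (y ^ k), mul_assoc, ← (c1.mul_right (u0v m)).eq,
        mul_inv_cancel_left]

end H49.SQS6b

namespace H49.SQS6b

open Cfsg Subgroup H30.SQ

universe u

theorem jobS6b : JobS6b.{u} := by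
  intro G _ _ T U₁ n w v c z H S K sU A
  obtain ⟨y, yT, y1, y2, v', hv, hz, cl, hM⟩ := main S K sU A H
  refine ⟨inf_le_left, cen_u0 S K.zc, K.zc, K.z1, K.z2, pow_mem S.wT _,
    fun u hu => (u0w hu).pow_right _, fun s hs h => K.nu s hs fun k => h (k.pow_right _),
    fun s hs h2 h => K.iv s hs h2 (by_contra fun k => K.z1 ?_), sU, A.2, A.1, ⟨S.vT, S.vz⟩,
    vz S K.z1 K.zc, ⟨y, yT, fun t ht hz t' ht' hz' => ?_⟩,
    ⟨v', hv, hz, fun t ht hz => (cl t ht hz).elim fun j h =>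
      ⟨_, zpow_mem S.wT j, fun u hu => (u0w hu).zpow_right j, h⟩, hM⟩, fun s hs => ?_⟩
  · have := K.nu s hs k
    rwa [← h.eq, mul_inv_cancel_right, left_eq_mul] at this
  · obtain ⟨k, rfl⟩ := y2 t ht hz
    obtain ⟨l, rfl⟩ := y2 t' ht' hz'
    rw [dih y1 S.v2]
    exact zpow_mem (mem_zpowers y) _
  · obtain ⟨u, hu, d, hd, e⟩ := K.act s hs
    refine ⟨u, (K.u0 _).2 (.inl hu), d, (closure_le T).2 ?_ hd, fun x hx => ?_, e⟩
    · rintro _ (rfl | rfl)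
      exacts [S.wT, S.vT]
    · refine mem_centralizer_singleton_iff.1 ((closure_le (centralizer {x})).2 ?_ hd) |>.symm
      rintro _ (rfl | rfl)
      exacts [mem_centralizer_singleton_iff.2 (u0w hx).symm, mem_centralizer_singleton_iff.2 (u0v hx).symm]

end H49.SQS6b
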