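import Cfsg.Agent.H2.SpSpec

/-! Slot SPIN-TWOP: the centre of a Sylow 2-subgroup of a double cover of an alternating group. -/

set_option autoImplicit false

namespace H49.SpTwoP

open Equiv Equiv.Perm Subgroup H2.Sp

universe u

theorem exists_pow {G : Type*} [Group G] {x : G} (h1 : x ≠ 1) :
    ∀ k : ℕ, x ^ 2 ^ k = 1 → ∃ j : ℕ, x ^ j ≠ 1 ∧ (x ^ j) ^ 2 = 1 := fun k => by
  induction k with
  | zero => exact fun h => absurd (by simpa using h) h1
  | succ k ih =>
    intro h
    by_cases e : x ^ 2 ^ k = 1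
    · exact ih e
    · exact ⟨2 ^ k, e, by rw [← pow_mul, ← pow_succ, h]⟩

variable {P K : Type*} [Fintype P] [DecidableEq P] [Group K] {z : K} {π : K →* Perm P}

/-- the lift of an involution does not commute with the lift of a suitable double transposition -/
theorem not_commute (D : DC z π) {w t : K} {a c : P} (h2 : π w ^ 2 = 1) (ha : π w a ≠ a)
    (hc : π w c ≠ c) (hac : a ≠ c) (hac' : π w a ≠ c)
    (ht : π t = swap a c * swap (π w a) (π w c)) : ¬ Commute w t := fun hw => by
  have hi : ∀ y, π w (π w y) = y := fun y => by rw [← Perm.mul_apply, ← pow_two, h2, one_apply]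
  set σ := π w with hσ
  have h4 : a ≠ σ c := fun e => hac' (by rw [e, hi])
  have h5 : σ a ≠ σ c := fun e => hac (σ.injective e)
  have h6 := hi a
  have h7 := hi c
  obtain ⟨s, hs⟩ := D.lift (σ := swap a (σ a) * swap c (σ c)) (by
    rw [map_mul, sign_swap ha.symm, sign_swap hc.symm]; decide)
  have hr : Commute (s * w) t := D.commute_of_disjoint fun y => by
    rw [map_mul, hs, ht, ← hσ]
    have := hi y
    simp only [Perm.mul_apply, swap_apply_def]
    grind
  have hst : Commute s t := by simpa using hr.mul_left hw.inv_left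
  have e1 := D.sq_swap ha.symm hac h4 hac' h5 hc.symm hs
  have e2 := D.sq_swap hac ha.symm h4 hac'.symm hc.symm h5 ht
  have e3 := D.sq_swap h4 ha.symm hac h5.symm hc hac' (g := s * t) (by
    rw [map_mul, hs, ht]
    ext y
    simp only [Perm.mul_apply, swap_apply_def]
    grind)
  rw [hst.mul_pow, e1, e2, D.zz] at e3
  exact D.ne e3.symm

theorem jobTwoP : H2.Sp.TwoP.{u} := by
  intro Ω _ _ K _ z π hD D _ hS v hv hc
  have : Fact (Nat.Prime 2) := ⟨Nat.prime_two⟩
  refine (hD.ker v).1 (by_contra fun h1 => ?_)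
  obtain ⟨k, hk⟩ := H98.isPGroup_iff_forall.1 hS.isPGroup _ ⟨v, hv, rfl⟩
  obtain ⟨j, hj1, hj2⟩ := exists_pow h1 k hk
  rw [← map_pow] at hj1 hj2
  have hwc : ∀ d ∈ D, Commute (v ^ j) d := fun d hd => (hc d hd).pow_left j
  have hwD := pow_mem hv j
  generalize v ^ j = w at hj1 hj2 hwc hwD
  obtain ⟨a, c, ha, hc, hac, hac'⟩ := DC.exists_four _ hj2 hj1 (hD.sign_π w)
  have hi : ∀ y, π w (π w y) = y := fun y => by rw [← Perm.mul_apply, ← pow_two, hj2, one_apply]
  have h4 : a ≠ π w c := fun e => hac' (by rw [e, hi])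
  have h5 : π w a ≠ π w c := fun e => hac ((π w).injective e)
  have h6 := hi a
  have h7 := hi c
  have hL : H98.IsSyl 2 (D.map π) (AltOn (mv (D.map π)) ⊓ centralizer {π w}) :=
    hS.of_le (le_inf hS.le (by
      rintro _ ⟨d, hd, rfl⟩
      exact mem_centralizer_singleton_iff.2 ((hwc d hd).map π).symm.eq)) inf_le_left
  have hτ : swap a c * swap (π w a) (π w c) ∈ AltOn (mv (D.map π)) ⊓ centralizer {π w} := by
    refine ⟨⟨mem_alternatingGroup.2 (by rw [map_mul, sign_swap hac, sign_swap h5]; decide),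
      (mem_fixingSubgroup_iff _).2 fun y hy => ?_⟩, mem_centralizer_singleton_iff.2 ?_⟩
    · have h8 : π w y = y := by_contra fun e => hy ⟨_, ⟨w, hwD, rfl⟩, e⟩
      simp only [Perm.smul_def, Perm.mul_apply, swap_apply_def]
      grind
    · ext y
      have := hi y
      simp only [Perm.mul_apply, swap_apply_def]
      grind
  obtain ⟨h, hh, hle⟩ := hL.exists_cj_le (H98.isPGroup_zpowers (k := 1)
    (x := swap a c * swap (π w a) (π w c)) (by
      ext y
      simp only [pow_one, pow_two, Perm.mul_apply, swap_apply_def, one_apply]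
      grind)) ((zpowers_le).2 hτ)
  obtain ⟨d, hd, e⟩ := hle (mem_map_of_mem (MulAut.conj h).toMonoidHom (mem_zpowers _))
  obtain ⟨g, rfl⟩ := hD.lift (mem_alternatingGroup.1 hh.1.1)
  have hσ : π (g⁻¹ * w * g) = π w := by
    rw [map_mul, map_mul, map_inv, mul_assoc, ← mem_centralizer_singleton_iff.1 hh.2,
      inv_mul_cancel_left]
  refine not_commute hD (w := g⁻¹ * w * g) (t := g⁻¹ * d * g) (a := a) (c := c) (by rwa [hσ])
    (by rwa [hσ]) (by rwa [hσ]) hac (by rwa [hσ]) ?_ ?_
  · rw [hσ, map_mul, map_mul, map_inv, e]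
    simp [mul_assoc]
  · simpa using (hwc d hd).map (MulAut.conj g⁻¹)

end H49.SpTwoP
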